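import Cfsg.Agent.Lib.AbelianTwo.Orb
import Cfsg.Agent.Lib.AbelianTwo.Count
import Cfsg.Agent.Lib.BlockSections.ExceptionalThree
import Cfsg.Agent.Lib.CharDegreesTheory.SingleBlock
import Cfsg.Agent.Lib.Involutions.Isolated
import Cfsg.Agent.Lib.Balance.ConnectedFunctor
import Cfsg.Agent.Lib.SixteenNine.Local

/-!
A semiregular normalizer action on an abelian Sylow 2-subgroup: the regular rank of the principal
block is the order of the action.
-/

set_option autoImplicit false
set_option linter.unusedSectionVars false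
set_option linter.style.haveILetI false

open Cfsg CfsgLib.CharTheory

namespace CfsgLib.AbelianTwo

universe u

/-- A group of order three, five, seven or fifteen is commutative. -/
theorem commute_of_card {E : Type*} [Group E] [Finite E]
    (he : Nat.card E = 3 ∨ Nat.card E = 5 ∨ Nat.card E = 7 ∨ Nat.card E = 15) (a b : E) :
    a * b = b * a := by
  have hp : ∀ p : ℕ, p.Prime → Nat.card E = p → a * b = b * a := by
    intro p hp hE
    haveI : Fact p.Prime := ⟨hp⟩
    haveI := isCyclic_of_prime_card hE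
    obtain ⟨g, hg⟩ := IsCyclic.exists_generator (α := E)
    obtain ⟨i, rfl⟩ := Subgroup.mem_zpowers_iff.1 (hg a)
    obtain ⟨j, rfl⟩ := Subgroup.mem_zpowers_iff.1 (hg b)
    exact zpow_mul_comm g i j
  rcases he with hE | hE | hE | hE
  · exact hp 3 Nat.prime_three hE
  · exact hp 5 (by norm_num) hE
  · exact hp 7 (by norm_num) hE
  haveI : Fact (Nat.Prime 3) := ⟨Nat.prime_three⟩
  obtain ⟨x, hx⟩ := exists_prime_orderOf_dvd_card' (G := E) 3 (by rw [hE]; norm_num)
  set S := Subgroup.zpowers x
  have hS : Nat.card S = 3 := by rw [Nat.card_zpowers, hx]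
  haveI hSn : S.Normal := by
    have hfac : Nat.card S = 3 ^ (Nat.card E).factorization 3 := by
      rw [hS, hE, show (15 : ℕ) = 3 * 5 by rfl,
        Nat.factorization_mul (by norm_num) (by norm_num)]
      simp [Nat.Prime.factorization (show Nat.Prime 5 by norm_num), Nat.prime_three.factorization]
    set Q := Sylow.ofCard S hfac
    have h1 : Nat.card (Sylow 3 E) ≡ 1 [MOD 3] := card_sylow_modEq_one 3 E
    have h2 : Nat.card (Sylow 3 E) ∣ 5 := by
      have h3 := Q.card_dvd_index
      have h5 := Subgroup.index_mul_card (Q : Subgroup E)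
      rw [show Nat.card (Q : Subgroup E) = 3 from hS, hE] at h5
      rwa [show (Q : Subgroup E).index = 5 by omega] at h3
    have h5 : Nat.card (Sylow 3 E) = 1 := by
      rcases (Nat.dvd_prime (by norm_num)).1 h2 with h6 | h6
      · exact h6
      · rw [h6] at h1
        exact absurd h1 (by decide)
    haveI := (Nat.card_eq_one_iff_unique.1 h5).1
    exact Q.normal_of_subsingleton
  have hx3 : x ^ 3 = 1 := hx ▸ pow_orderOf_eq_one x
  have hfix : ∀ g : E, g * x * g⁻¹ = x := by
    intro g
    have h2 : g * x * g⁻¹ = x ∨ g * x * g⁻¹ = x⁻¹ := by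
      obtain ⟨n, hng⟩ := (IsOfFinOrder.mem_powers_iff_mem_zpowers (isOfFinOrder_of_finite x)).2
        (hSn.conj_mem x (Subgroup.mem_zpowers x) g)
      have hng' : x ^ n = g * x * g⁻¹ := hng
      rw [← hng', ← pow_mod_orderOf, hx]
      have h3 : n % 3 < 3 := Nat.mod_lt _ (by norm_num)
      interval_cases hr : n % 3
      · exfalso
        rw [← pow_mod_orderOf, hx, hr, pow_zero] at hng'
        have : x = 1 := conj_eq_one_iff.1 hng'.symm
        rw [this, orderOf_one] at hx
        omega
      · left; rw [pow_one]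
      · right
        rw [eq_inv_iff_mul_eq_one, ← pow_succ, hx3]
    rcases h2 with h2 | h2
    · exact h2
    · have h4 : g ^ 2 * x * (g ^ 2)⁻¹ = x := by
        rw [show g ^ 2 * x * (g ^ 2)⁻¹ = g * (g * x * g⁻¹) * g⁻¹ by rw [pow_two]; group, h2,
          show g * x⁻¹ * g⁻¹ = (g * x * g⁻¹)⁻¹ by group, h2, inv_inv]
      have h5 : Commute (g ^ 2) x := mul_inv_eq_iff_eq_mul.1 h4
      have h6 : g = (g ^ 2) ^ 8 := by
        rw [← pow_mul, show 2 * 8 = Nat.card E + 1 by omega, pow_succ, pow_card_eq_one', one_mul]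
      have h7 : Commute g x := h6 ▸ h5.pow_left 8
      rw [h7.eq, mul_inv_cancel_right]
  haveI : IsCyclic (E ⧸ S) := by
    haveI : Fact (Nat.Prime 5) := ⟨by norm_num⟩
    refine isCyclic_of_prime_card (p := 5) ?_
    have := Subgroup.card_eq_card_quotient_mul_card_subgroup S
    rw [hE, hS] at this
    omega
  have hk : (QuotientGroup.mk' S).ker ≤ Subgroup.center E := by
    rw [QuotientGroup.ker_mk', Subgroup.zpowers_le, Subgroup.mem_center_iff]
    exact fun g => mul_inv_eq_iff_eq_mul.1 (hfix g)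
  exact (MonoidHom.isMulCommutative_of_isCyclic_of_ker_le_center _ hk).is_comm.comm a b

variable {G : Type u} [Group G] [Finite G]

/-- Commutators of the normalizer centralize the Sylow subgroup for these orders. -/
theorem commutator_mem_centralizer {P : Sylow 2 G} {e : ℕ} {Z : Subgroup G} (h : Orb P e Z)
    (he : e = 3 ∨ e = 5 ∨ e = 7 ∨ e = 15) {a b : G}
    (ha : a ∈ Subgroup.normalizer ((P : Subgroup G) : Set G))
    (hb : b ∈ Subgroup.normalizer ((P : Subgroup G) : Set G)) :
    a * b * a⁻¹ * b⁻¹ ∈ Subgroup.centralizer ((P : Subgroup G) : Set G) := by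
  set N := Subgroup.normalizer ((P : Subgroup G) : Set G)
  set C := Subgroup.centralizer ((P : Subgroup G) : Set G)
  have hker : C.subgroupOf N = (Subgroup.normalizerMonoidHom (P : Subgroup G)).ker :=
    (Subgroup.normalizerMonoidHom_ker _).symm
  haveI : (C.subgroupOf N).Normal := hker ▸ inferInstance
  have hcard : Nat.card (N ⧸ C.subgroupOf N) = e := h.card_e
  have h1 := commute_of_card (by rw [hcard]; exact he) ((⟨a, ha⟩ : N) : N ⧸ C.subgroupOf N)
    ((⟨b, hb⟩ : N) : N ⧸ C.subgroupOf N)
  have h2 : (((⟨a, ha⟩ : N) * ⟨b, hb⟩ * (⟨a, ha⟩ : N)⁻¹ * (⟨b, hb⟩ : N)⁻¹ : N) : N ⧸ C.subgroupOf N)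
      = 1 := by
    rw [QuotientGroup.mk_mul, QuotientGroup.mk_mul, QuotientGroup.mk_mul, h1, QuotientGroup.mk_inv,
      QuotientGroup.mk_inv, mul_inv_cancel_right, mul_inv_cancel]
  rw [QuotientGroup.eq_one_iff, Subgroup.mem_subgroupOf] at h2
  exact h2

namespace Orb

variable {P : Sylow 2 G} {e : ℕ} (h : Orb P e ⊥) {Mi : Ideal AlgInt}
include h

theorem isFrobSylow : BlockSections.Exceptional.IsFrobSylow P e := by
  refine ⟨⟨⟨fun a b => Subtype.ext (h.comm a a.2 b b.2)⟩⟩, h.card_e, fun y hy hy1 => le_antisymm ?_ ?_⟩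
  · intro n hn
    refine h.reg y hy (fun hm => hy1 (Subgroup.mem_bot.1 hm)) n hn.2 ?_
    rw [Subgroup.mem_centralizer_singleton_iff.1 hn.1, mul_inv_cancel_right]
  · exact le_inf (fun n hn => Subgroup.mem_centralizer_singleton_iff.2
      (Subgroup.mem_centralizer_iff.1 hn y hy).symm) (Subgroup.centralizer_le_normalizer _)

/-- The principal block and its regular rank. -/
theorem blockRank_add (hM : IsPModular 2 Mi) : ∃ s : ℕ,
    Nat.card (principalBlock Mi G) = blockRank 2 (principalBlock Mi G) + s ∧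
      s * e + 1 = Nat.card (P : Subgroup G) := by
  haveI : Fact (Nat.Prime 2) := ⟨Nat.prime_two⟩
  haveI := Fintype.ofFinite (⊥ : Subgroup G)
  obtain ⟨s, h1, h2⟩ := h.card_principalBlock_mul hM
  rw [Subgroup.card_bot] at h2
  rw [Fintype.sum_subsingleton _ (1 : (⊥ : Subgroup G)), OneMemClass.coe_one,
    blockRank_centralizer_one hM] at h1
  exact ⟨s, h1, h2⟩

/-- Sixteen elements and three automorphisms: eight characters, rank three. -/
theorem blockRank_three_sixteen (hM : IsPModular 2 Mi) (he : e = 3)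
    (h16 : Nat.card (P : Subgroup G) = 16) : blockRank 2 (principalBlock Mi G) = 3 := by
  subst he
  haveI : Fact (Nat.Prime 2) := ⟨Nat.prime_two⟩
  haveI := Blocks.isPrime_of_isPModular hM
  haveI := Fintype.ofFinite G
  obtain ⟨s, hs, hs'⟩ := h.blockRank_add hM
  have hF := h.isFrobSylow
  obtain ⟨D⟩ := BlockSections.Exceptional.exists_excData hF hM (by norm_num) (by rw [h16]; norm_num)
  obtain ⟨D', hd⟩ := BlockSections.Exceptional.exists_zeroShift hF.comm D
  have hX := (BlockSections.Exceptional.card_X_three D' hd).1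
  have hY := D'.card_Y
  have hB : Nat.card (principalBlock Mi G) = Nat.card D'.X + Nat.card D'.Y := by
    rw [Nat.card_coe_set_eq, Nat.card_coe_set_eq, Nat.card_coe_set_eq, D'.union,
      Set.ncard_union_eq D'.disj D'.X.toFinite D'.Y.toFinite]
  omega

/-- A normal Sylow subgroup with a commutative automorphism group. -/
theorem blockRank_normal' (hM : IsPModular 2 Mi) [hPn : (P : Subgroup G).Normal]
    (hO : oddCore G = ⊥)
    (hcom : ∀ a ∈ Subgroup.normalizer ((P : Subgroup G) : Set G),
      ∀ b ∈ Subgroup.normalizer ((P : Subgroup G) : Set G),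
        a * b * a⁻¹ * b⁻¹ ∈ Subgroup.centralizer ((P : Subgroup G) : Set G)) :
    blockRank 2 (principalBlock Mi G) = e := by
  classical
  haveI : Fact (Nat.Prime 2) := ⟨Nat.prime_two⟩
  haveI := Blocks.isPrime_of_isPModular hM
  haveI := Fintype.ofFinite G
  haveI := Fintype.ofFinite (ConjClasses G)
  obtain ⟨s, hs, hs'⟩ := h.blockRank_add hM
  set C := Subgroup.centralizer ((P : Subgroup G) : Set G)
  haveI : C.Normal := inferInstanceAs (Subgroup.centralizer ((P : Subgroup G) : Set G)).Normal
  have hN : Subgroup.normalizer ((P : Subgroup G) : Set G) = ⊤ := Subgroup.normalizer_eq_top_iff.2 hPn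
  -- the centralizer is the Sylow subgroup
  have hPC : (P : Subgroup G) ≤ C := fun a ha =>
    Subgroup.mem_centralizer_iff.2 fun b hb => h.comm b hb a ha
  have hCP : C ≤ (P : Subgroup G) := by
    let PC : Sylow 2 C := P.subtype hPC
    have hPCc : Subgroup.normalizer ((PC : Subgroup C) : Set C) ≤
        Subgroup.centralizer ((PC : Subgroup C) : Set C) := fun n _ =>
      Subgroup.mem_centralizer_iff.2 fun b hb =>
        Subtype.ext (Subgroup.mem_centralizer_iff.1 n.2 (b : G) hb)
    have hcompl := MonoidHom.ker_transferSylow_isComplement' PC hPCc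
    set K := (MonoidHom.transferSylow PC hPCc).ker
    have hKidx : K.index = Nat.card (PC : Subgroup C) := hcompl.symm.index_eq_card
    have hKcard : ¬ 2 ∣ Nat.card K := by
      rw [← hcompl.index_eq_card]
      exact Sylow.not_dvd_index PC
    have hKbot : K.map C.subtype = ⊥ := by
      refine le_bot_iff.1 (hO ▸ ?_)
      haveI : (K.map C.subtype).Normal := by
        refine ⟨fun g hg c => ?_⟩
        obtain ⟨k, hk, rfl⟩ := hg
        refine ⟨⟨c * k * c⁻¹, Subgroup.Normal.conj_mem inferInstance _ k.2 c⟩, ?_, rfl⟩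
        obtain ⟨n, hn⟩ := IsPGroup.iff_card.1 PC.isPGroup'
        refine BlockLocal.mem_of_p_regular (N := K) ⟨n, hKidx.trans hn⟩ ?_
        rw [Subgroup.orderOf_mk, show orderOf (c * (k : G) * c⁻¹) = orderOf (k : G) from
          (MulAut.conj c).orderOf_eq _, Subgroup.orderOf_coe]
        exact fun hd => hKcard (hd.trans (Subgroup.orderOf_dvd_natCard _ hk))
      refine CfsgLib.Cores.le_oddCore ?_
      rw [Subgroup.card_map_of_injective C.subtype_injective]
      exact Nat.odd_iff.2 (Nat.two_dvd_ne_zero.1 hKcard)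
    have hK0 : K = ⊥ :=
      (Subgroup.map_eq_bot_iff_of_injective _ C.subtype_injective).1 hKbot
    have hPC' : (PC : Subgroup C) = ⊤ := by
      have h9 := hcompl
      rw [hK0] at h9
      exact Subgroup.isComplement'_bot_left.1 h9
    intro c hc
    exact (show (⟨c, hc⟩ : C) ∈ (PC : Subgroup C) from hPC' ▸ Subgroup.mem_top _)
  have hCeq : C = (P : Subgroup G) := le_antisymm hCP hPC
  have hidx : (P : Subgroup G).index = e := by
    rw [← h.card_e, hN, Subgroup.relIndex_top_right]
    exact congrArg Subgroup.index hCeq.symm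
  have hcomm : ∀ a b : G, a * b * a⁻¹ * b⁻¹ ∈ (P : Subgroup G) := fun a b =>
    hCP (hcom a (hN ▸ Subgroup.mem_top a) b (hN ▸ Subgroup.mem_top b))
  -- the orders of the centralizers
  set q := Nat.card (P : Subgroup G) with hq
  have hG : Nat.card G = q * e := by rw [← hidx, hq, Subgroup.card_mul_index]
  have hin : ∀ g ∈ (P : Subgroup G), g ≠ 1 → Subgroup.centralizer ({g} : Set G) = (P : Subgroup G) := by
    intro g hg hg1
    refine le_antisymm (fun n hn => hCP ?_) fun a ha =>
      Subgroup.mem_centralizer_singleton_iff.2 (h.comm a ha g hg)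
    refine h.reg g hg (fun hm => hg1 (Subgroup.mem_bot.1 hm)) n (hN ▸ Subgroup.mem_top n) ?_
    rw [Subgroup.mem_centralizer_singleton_iff.1 hn, mul_inv_cancel_right]
  have hout : ∀ g ∉ (P : Subgroup G), Nat.card (Subgroup.centralizer ({g} : Set G)) = e := by
    intro g hg
    set K := Subgroup.centralizer ({g} : Set G)
    refine le_antisymm ?_ ?_
    · refine le_of_le_of_eq (Nat.card_le_card_of_injective
        (fun c : K => ((c : G) : G ⧸ (P : Subgroup G))) fun c d hcd => ?_) hidx
      have h1 : (c : G)⁻¹ * d ∈ (P : Subgroup G) := QuotientGroup.eq.1 hcd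
      by_contra hne
      refine hg ?_
      rw [← hin _ h1 fun e1 => hne (Subtype.ext (inv_mul_eq_one.1 e1))]
      exact Subgroup.mem_centralizer_singleton_iff.2
        (Subgroup.mem_centralizer_singleton_iff.1 (mul_mem (inv_mem c.2) d.2)).symm
    · have h1 := Involutions.card_isConj_mul_card_centralizer g
      have h2 : Nat.card {x : G // IsConj g x} ≤ q := by
        refine Nat.card_le_card_of_injective (fun x => (⟨g⁻¹ * x.1, ?_⟩ : (P : Subgroup G)))
          fun x y hxy => Subtype.ext (mul_left_cancel (congrArg Subtype.val hxy))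
        obtain ⟨c, hc⟩ := isConj_iff.1 x.2
        rw [← hc, show g⁻¹ * (c * g * c⁻¹) = g⁻¹ * c * g⁻¹⁻¹ * c⁻¹ by group]
        exact hcomm _ _
      rw [hG] at h1
      by_contra hlt
      have h3 := Nat.mul_le_mul_right (Nat.card K) h2
      have h4 : q * Nat.card K < q * e :=
        (Nat.mul_lt_mul_left Nat.card_pos).2 (not_le.1 hlt)
      linarith
  -- the class count
  have hk : Nat.card (ConjClasses G) = e + s := by
    have hpos : 0 < Nat.card G := Nat.card_pos
    refine Nat.eq_of_mul_eq_mul_right hpos ?_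
    rw [← card_comm_eq_card_conjClasses_mul_card, Nat.card_eq_fintype_card, Fintype.card_subtype]
    rw [Finset.card_eq_sum_card_fiberwise (f := Prod.fst) (t := Finset.univ)
      fun x _ => Finset.mem_univ _]
    have hfib : ∀ g : G, ((Finset.univ.filter fun x : G × G => Commute x.1 x.2).filter
        fun x => x.1 = g).card = if g ∈ (P : Subgroup G) then (if g = 1 then q * e else q) else e := by
      intro g
      have h5 : ((Finset.univ.filter fun x : G × G => Commute x.1 x.2).filter
          fun x => x.1 = g).card = Nat.card (Subgroup.centralizer ({g} : Set G)) := by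
        rw [Nat.card_eq_fintype_card, Fintype.card_subtype]
        refine Finset.card_bij (fun x _ => x.2) (fun x hx => ?_) (fun x hx y hy e1 => ?_)
          (fun c hc => ?_)
        · simp only [Finset.mem_filter, Finset.mem_univ, true_and] at hx ⊢
          exact Subgroup.mem_centralizer_singleton_iff.2 (hx.2 ▸ hx.1).symm.eq
        · simp only [Finset.mem_filter, Finset.mem_univ, true_and] at hx hy
          exact Prod.ext (hx.2.trans hy.2.symm) e1
        · simp only [Finset.mem_filter, Finset.mem_univ, true_and] at hc ⊢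
          exact ⟨(g, c), ⟨(Subgroup.mem_centralizer_singleton_iff.1 hc).symm, rfl⟩, rfl⟩
      rw [h5]
      split_ifs with h1 h2
      · subst h2
        rw [← hG]
        refine Nat.card_congr (Equiv.subtypeUnivEquiv fun c => ?_)
        exact Subgroup.mem_centralizer_singleton_iff.2 (by rw [mul_one, one_mul])
      · rw [hin g h1 h2]
      · exact hout g h1
    rw [Finset.sum_congr rfl fun g _ => hfib g,
      ← Finset.sum_filter_add_sum_filter_not Finset.univ (fun g : G => g ∈ (P : Subgroup G)),
      Finset.sum_congr rfl (s₁ := Finset.univ.filter fun g : G => g ∈ (P : Subgroup G))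
        (g := fun g => if g = 1 then q * e else q) fun g hg => if_pos (Finset.mem_filter.1 hg).2,
      Finset.sum_congr rfl (s₁ := Finset.univ.filter fun g : G => ¬ g ∈ (P : Subgroup G))
        (g := fun _ => e) fun g hg => if_neg (Finset.mem_filter.1 hg).2,
      Finset.sum_const, smul_eq_mul,
      ← Finset.add_sum_erase _ _ (Finset.mem_filter.2 ⟨Finset.mem_univ _,
        (P : Subgroup G).one_mem⟩ : (1 : G) ∈ Finset.univ.filter fun g : G => g ∈ (P : Subgroup G)),
      if_pos rfl, Finset.sum_congr rfl (g := fun _ => q)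
        fun g hg => if_neg (Finset.mem_erase.1 hg).1, Finset.sum_const, smul_eq_mul,
      Finset.card_erase_of_mem (Finset.mem_filter.2 ⟨Finset.mem_univ _, (P : Subgroup G).one_mem⟩)]
    have hf1 : (Finset.univ.filter fun g : G => g ∈ (P : Subgroup G)).card = q := by
      rw [hq, Nat.card_eq_fintype_card, Fintype.card_subtype]
    have hf2 : (Finset.univ.filter fun g : G => ¬ g ∈ (P : Subgroup G)).card + q = q * e := by
      rw [← hG, ← hf1, add_comm, Finset.card_filter_add_card_filter_not, Finset.card_univ,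
        Nat.card_eq_fintype_card]
    rw [hf1, hG]
    have hs'' : q - 1 = s * e := by omega
    rw [hs'']
    nlinarith [hf2]
  -- one block
  have hall : principalBlock Mi G = Set.univ := by
    refine Set.eq_univ_of_forall fun χ => ?_
    have h7 := CharDegreesTheory.sameBlock_of_centralizer_le hM (P : Subgroup G) P.isPGroup'
      hCP (trivIrr G) χ
    exact h7
  have hk' : Nat.card (principalBlock Mi G) = Nat.card (ConjClasses G) := by
    rw [hall, Nat.card_univ, card_irrCharacter]
  omega

/-- A normal Sylow subgroup. -/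
theorem blockRank_normal (hM : IsPModular 2 Mi) [hPn : (P : Subgroup G).Normal]
    (hO : oddCore G = ⊥) (he : e = 3 ∨ e = 5 ∨ e = 7 ∨ e = 15) :
    blockRank 2 (principalBlock Mi G) = e :=
  h.blockRank_normal' hM hO fun _ ha _ hb => commutator_mem_centralizer h he ha hb

/-- The centralizers of the involutions have normal 2-complements. -/
theorem nilp : ∀ x : G, orderOf x = 2 → ∀ y ∈ Subgroup.centralizer ({x} : Set G),
    Odd (orderOf y) → y ∈ centralizerPPrimeCore 2 x := by
  classical
  haveI : Fact (Nat.Prime 2) := ⟨Nat.prime_two⟩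
  haveI := Fintype.ofFinite G
  intro x hx y hy hyodd
  obtain ⟨g, hg⟩ := Involutions.exists_conj_mem_of_involution P hx
  set φ := MulAut.conj g
  have hg1 : φ x ≠ 1 := by
    rw [ne_eq, MulEquiv.map_eq_one_iff]
    exact fun e1 => by rw [e1, orderOf_one] at hx; omega
  set K := Subgroup.centralizer ({φ x} : Set G)
  obtain ⟨S, O, hOn, hOc⟩ := hasNormalPComplement_centralizer P h.comm (a := φ x) hg
    (h.reg _ hg fun hm => hg1 (Subgroup.mem_bot.1 hm))
  have hOidx : ∃ k : ℕ, O.index = 2 ^ k := by
    obtain ⟨k, hk⟩ := IsPGroup.iff_card.1 S.isPGroup'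
    exact ⟨k, by rw [hOc.symm.index_eq_card]; exact hk⟩
  have hyK : φ y ∈ K := Subgroup.mem_centralizer_singleton_iff.2 (by
    rw [← map_mul, Subgroup.mem_centralizer_singleton_iff.1 hy, map_mul])
  have hyO : (⟨φ y, hyK⟩ : K) ∈ O := by
    refine BlockLocal.mem_of_p_regular hOidx ?_
    rw [Subgroup.orderOf_mk, φ.orderOf_eq]
    exact Nat.two_dvd_ne_zero.2 (Nat.odd_iff.1 hyodd)
  have hle : O ≤ pPrimeCore 2 K := by
    refine CfsgLib.Cores.le_pPrimeCore ?_
    rw [← hOc.index_eq_card]
    exact ((Nat.prime_two.coprime_iff_not_dvd).2 (Sylow.not_dvd_index S)).symm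
  have hmem : φ y ∈ centralizerPPrimeCore 2 (φ x) := ⟨_, hle hyO, rfl⟩
  rw [← Balance.map_centralizerPPrimeCore φ x] at hmem
  obtain ⟨z, hz, hzy⟩ := hmem
  rwa [← φ.injective hzy]


/-- An elementary Sylow subgroup that is not normal and has a commutative automorphism group. -/
theorem blockRank_not_normal' (hM : IsPModular 2 Mi) (hP : ¬ (P : Subgroup G).Normal)
    (hO : oddCore G = ⊥) (hel : ∀ g ∈ (P : Subgroup G), g * g = 1)
    (h8 : 8 ≤ Nat.card (P : Subgroup G))
    (hcom : ∀ a ∈ Subgroup.normalizer ((P : Subgroup G) : Set G),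
      ∀ b ∈ Subgroup.normalizer ((P : Subgroup G) : Set G),
        a * b * a⁻¹ * b⁻¹ ∈ Subgroup.centralizer ((P : Subgroup G) : Set G)) :
    blockRank 2 (principalBlock Mi G) = e ∧ e + 1 = Nat.card (P : Subgroup G) := by
  classical
  haveI : Fact (Nat.Prime 2) := ⟨Nat.prime_two⟩
  haveI := Fintype.ofFinite G
  obtain ⟨s, hs, hs'⟩ := h.blockRank_add hM
  have hnilp := h.nilp
  have hH : Hyp P := ⟨h.comm, ⟨(P : Subgroup G), le_rfl, hel, h8⟩, hnilp, hO⟩
  set N := Subgroup.normalizer ((P : Subgroup G) : Set G)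
  set M := bigSub hH
  set W := (innerSub hH).subgroupOf M
  haveI : W.Normal := hH.innerSub_normal
  obtain ⟨x, hxP, hx⟩ := hH.exists_involution
  have hNM : N ≤ M := le_sup_right
  let f : N →* M ⧸ W := (QuotientGroup.mk' W).comp (Subgroup.inclusion hNM)
  have hker : f.ker = (Subgroup.centralizer ((P : Subgroup G) : Set G)).subgroupOf N := by
    ext n
    rw [MonoidHom.mem_ker, Subgroup.mem_subgroupOf]
    show ((Subgroup.inclusion hNM n : M) : M ⧸ W) = 1 ↔ _
    rw [QuotientGroup.eq_one_iff, Subgroup.mem_subgroupOf, Subgroup.coe_inclusion]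
    refine ⟨fun hn => Subgroup.mem_centralizer_iff.2 fun a ha => ?_, fun hn => ?_⟩
    · exact (mul_inv_eq_iff_eq_mul.1 (hH.commute_of_normalizer_inf n.2 hn ha)).symm
    · exact hH.centralizer_le_innerSub hxP hx (Subgroup.mem_centralizer_singleton_iff.2
        (Subgroup.mem_centralizer_iff.1 hn x hxP).symm)
  have hsurj : Function.Surjective f := by
    intro r
    obtain ⟨⟨m, hm⟩, rfl⟩ := QuotientGroup.mk_surjective r
    obtain ⟨w, hw, n, hn, rfl⟩ := hH.mem_bigSub_iff.1 hm
    refine ⟨⟨n, hn⟩, QuotientGroup.eq.2 (Subgroup.mem_subgroupOf.2 ?_)⟩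
    show n⁻¹ * (w * n) ∈ innerSub hH
    refine Subgroup.mem_sup_left ?_
    have h4 := (Subgroup.mem_normalizer_iff.1 (hH.normalizer_le (inv_mem hn)) w).1 hw
    rwa [inv_inv, mul_assoc] at h4
  have hout : e + 1 = Nat.card (P : Subgroup G) := by
    rw [← hH.card_outer hP hel, ← h.card_e, Subgroup.relIndex, ← hker, Subgroup.index_ker,
      MonoidHom.range_eq_top.2 hsurj, Subgroup.card_top]
  have hc : Hyp.OuterComm hH := by
    intro a ha b hb
    obtain ⟨n, hn⟩ := hsurj ((⟨a, ha⟩ : M) : M ⧸ W)
    obtain ⟨m, hm⟩ := hsurj ((⟨b, hb⟩ : M) : M ⧸ W)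
    have h1 : f (n * m * n⁻¹ * m⁻¹) = 1 := by
      rw [← MonoidHom.mem_ker, hker, Subgroup.mem_subgroupOf]
      exact hcom _ n.2 _ m.2
    rw [map_mul, map_mul, map_mul, map_inv, map_inv, hn, hm] at h1
    have h2 : (((⟨a, ha⟩ : M) * ⟨b, hb⟩ * (⟨a, ha⟩ : M)⁻¹ * (⟨b, hb⟩ : M)⁻¹ : M) : M ⧸ W) = 1 := by
      rw [QuotientGroup.mk_mul, QuotientGroup.mk_mul, QuotientGroup.mk_mul, QuotientGroup.mk_inv,
        QuotientGroup.mk_inv]
      exact h1
    rw [QuotientGroup.eq_one_iff, Subgroup.mem_subgroupOf] at h2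
    exact h2
  have hk := hH.card_principalBlock hM hP hel hc
  have hs1 : s = 1 := by
    have : s * e = e := by omega
    exact (Nat.mul_eq_right h.pos.ne').1 this
  subst hs1
  exact ⟨by omega, hout⟩

/-- An elementary Sylow subgroup that is not normal. -/
theorem blockRank_not_normal (hM : IsPModular 2 Mi) (hP : ¬ (P : Subgroup G).Normal)
    (hO : oddCore G = ⊥) (hel : ∀ g ∈ (P : Subgroup G), g * g = 1)
    (h8 : 8 ≤ Nat.card (P : Subgroup G)) (he : e = 3 ∨ e = 5 ∨ e = 7 ∨ e = 15) :
    blockRank 2 (principalBlock Mi G) = e :=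
  (h.blockRank_not_normal' hM hP hO hel h8
    fun _ ha _ hb => commutator_mem_centralizer h he ha hb).1

/-- An elementary Sylow subgroup of order at least eight. -/
theorem blockRank_elementary (hM : IsPModular 2 Mi) (hO : oddCore G = ⊥)
    (hel : ∀ g ∈ (P : Subgroup G), g * g = 1) (h8 : 8 ≤ Nat.card (P : Subgroup G))
    (he : e = 3 ∨ e = 5 ∨ e = 7 ∨ e = 15) : blockRank 2 (principalBlock Mi G) = e := by
  by_cases hP : (P : Subgroup G).Normal
  · haveI := hP; exact h.blockRank_normal hM hO he
  · exact h.blockRank_not_normal hM hP hO hel h8 he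

/-- A four-group with three automorphisms. -/
theorem blockRank_klein (hM : IsPModular 2 Mi) (he : e = 3)
    (h4 : Nat.card (P : Subgroup G) = 4) : blockRank 2 (principalBlock Mi G) = 3 := by
  classical
  subst he
  haveI : Fact (Nat.Prime 2) := ⟨Nat.prime_two⟩
  haveI := Fintype.ofFinite G
  haveI := Fintype.ofFinite (P : Subgroup G)
  -- all nonidentity elements are conjugate
  have hconj : ∀ a ∈ (P : Subgroup G), a ≠ 1 → ∀ b ∈ (P : Subgroup G), b ≠ 1 → IsConj a b := by
    intro a ha ha1 b hb hb1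
    have h1 := h.card_orbit ha fun hm => ha1 (Subgroup.mem_bot.1 hm)
    rw [Nat.card_eq_fintype_card, Fintype.card_subtype] at h1
    set O := Finset.univ.filter fun c : G => c ∈ (P : Subgroup G) ∧ IsConj a c
    have hOsub : O ⊆ (Finset.univ.filter fun c : G => c ∈ (P : Subgroup G)).erase 1 := by
      intro c hc
      obtain ⟨-, hc1, hc2⟩ := Finset.mem_filter.1 hc
      refine Finset.mem_erase.2 ⟨fun e1 => ha1 ?_, Finset.mem_filter.2 ⟨Finset.mem_univ _, hc1⟩⟩
      rw [e1] at hc2
      exact (isConj_one_left).1 hc2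
    have hcard : ((Finset.univ.filter fun c : G => c ∈ (P : Subgroup G)).erase 1).card = 3 := by
      rw [Finset.card_erase_of_mem (Finset.mem_filter.2 ⟨Finset.mem_univ _, (P : Subgroup G).one_mem⟩),
        ← Fintype.card_subtype, ← Nat.card_eq_fintype_card, h4]
    have hb' : b ∈ O := by
      rw [Finset.eq_of_subset_of_card_le hOsub (by rw [hcard, h1])]
      exact Finset.mem_erase.2 ⟨hb1, Finset.mem_filter.2 ⟨Finset.mem_univ _, hb⟩⟩
    exact (Finset.mem_filter.1 hb').2.2
  have hone : ∀ s t : G, orderOf s = 2 → orderOf t = 2 → IsConj s t := by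
    intro s t hs ht
    obtain ⟨g, hg⟩ := Involutions.exists_conj_mem_of_involution P hs
    obtain ⟨g', hg'⟩ := Involutions.exists_conj_mem_of_involution P ht
    have hne : ∀ (r c : G), orderOf r = 2 → c * r * c⁻¹ ≠ 1 := fun r c hr e1 => by
      rw [conj_eq_one_iff] at e1
      rw [e1, orderOf_one] at hr
      omega
    exact (isConj_iff.2 ⟨g, rfl⟩).trans ((hconj _ hg (hne s g hs) _ hg' (hne t g' ht)).trans
      (isConj_iff.2 ⟨g', rfl⟩).symm)
  have hQ : IsKleinFour (P : Subgroup G) := by
    refine ⟨h4, ?_⟩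
    haveI : Nontrivial (P : Subgroup G) := Finite.one_lt_card_iff_nontrivial.1 (by omega)
    obtain ⟨a, ha⟩ := exists_ne (1 : (P : Subgroup G))
    obtain ⟨x, hx⟩ := exists_prime_orderOf_dvd_card' (G := (P : Subgroup G)) 2 (by omega)
    have hsq : ∀ b : (P : Subgroup G), b ^ 2 = 1 := by
      intro b
      by_cases hb : b = 1
      · rw [hb, one_pow]
      have hx1 : x ≠ 1 := fun e1 => by rw [e1, orderOf_one] at hx; omega
      obtain ⟨c, hc⟩ := isConj_iff.1 (hconj x x.2 (fun e1 => hx1 (Subtype.ext e1)) b b.2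
        (fun e1 => hb (Subtype.ext e1)))
      refine Subtype.ext ?_
      rw [SubmonoidClass.coe_pow, OneMemClass.coe_one, ← hc, conj_pow, ← SubmonoidClass.coe_pow,
        orderOf_dvd_iff_pow_eq_one.1 (dvd_of_eq hx), OneMemClass.coe_one, mul_one, mul_inv_cancel]
    refine le_antisymm (Nat.le_of_dvd two_pos (Monoid.exponent_dvd_of_forall_pow_eq_one hsq)) ?_
    exact hx.symm.le.trans (Nat.le_of_dvd (Nat.pos_of_ne_zero Monoid.exponent_ne_zero_of_finite)
      (Monoid.order_dvd_exponent x))
  obtain ⟨-, -, -, -, -, -, -, hl⟩ := SixteenNine.klein_data Mi hM P hQ hone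
  exact hl

end Orb

end CfsgLib.AbelianTwo
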