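import Cfsg.Agent.S4735
import Cfsg.Agent.Lib.ZerosCodegree.RankQuotient
import Cfsg.Agent.Lib.BlockLocal.KernelSupport
import Cfsg.Agent.Lib.BlockLocal.PrincipalColumns
import Cfsg.Agent.Lib.CharTheory.Inflation

/-!
The principal block modulo a normal subgroup of order prime to `p`: number of characters and
regular rank.
-/

set_option autoImplicit false
set_option linter.unusedSectionVars false
set_option linter.style.haveILetI false

open Cfsg CfsgLib.CharTheory CfsgLib.Blocks CfsgLib.ZerosCodegree CfsgLib.BrauerCharacters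

namespace CfsgLib.AbelianTwo

universe u

variable {G : Type u} [Group G] [Finite G] {p : ℕ} [Fact p.Prime] {Mi : Ideal AlgInt}
  (hM : IsPModular p Mi) (N : Subgroup G) [N.Normal] (hN : ¬ p ∣ Nat.card N)

include hM hN

theorem inflateIrr_mem_iff (ψ : IrrCharacter (G ⧸ N)) :
    inflateIrr N ψ ∈ principalBlock Mi G ↔ ψ ∈ principalBlock Mi (G ⧸ N) := by
  haveI := Fintype.ofFinite G
  haveI := Blocks.isPrime_of_isPModular hM
  exact Cfsg.Agent.S4735.mem_principalBlock_inflate_iff hM N hN fun g => rfl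

theorem exists_inflateIrr_eq {χ : IrrCharacter G} (hχ : χ ∈ principalBlock Mi G) :
    ∃ ψ : IrrCharacter (G ⧸ N), ψ ∈ principalBlock Mi (G ⧸ N) ∧ inflateIrr N ψ = χ := by
  haveI := Fintype.ofFinite G
  haveI := Blocks.isPrime_of_isPModular hM
  have hk := BlockLocal.apply_eq_one_of_sameBlock hM N hN (χ := trivIrr G) (ψ := χ)
    (sameBlock_of_mem (BlockLocal.principalBlock_isPBlock Mi G)
      (BlockLocal.trivIrr_mem_principalBlock G) hχ) (fun _ _ => rfl)
  obtain ⟨ψ, hψ, he⟩ := CharTheory.exists_descend χ.2 N hk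
  refine ⟨⟨ψ, hψ⟩, ?_, Subtype.ext (funext fun g => (he g).symm)⟩
  rw [← inflateIrr_mem_iff hM N hN]
  have : inflateIrr N ⟨ψ, hψ⟩ = χ := Subtype.ext (funext fun g => (he g).symm)
  rwa [this]

/-- The number of characters of the principal block passes to the quotient. -/
theorem card_principalBlock_quotient :
    Nat.card (principalBlock Mi (G ⧸ N)) = Nat.card (principalBlock Mi G) := by
  refine Nat.card_congr (Equiv.ofBijective
    (fun ψ => ⟨inflateIrr N ψ.1, (inflateIrr_mem_iff hM N hN ψ.1).2 ψ.2⟩) ⟨?_, ?_⟩)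
  · intro a b e
    refine Subtype.ext (Subtype.ext (funext fun q => ?_))
    obtain ⟨g, rfl⟩ := QuotientGroup.mk_surjective q
    exact congrFun (congrArg Subtype.val (congrArg Subtype.val e)) g
  · rintro ⟨χ, hχ⟩
    obtain ⟨ψ, hψ, e⟩ := exists_inflateIrr_eq hM N hN hχ
    exact ⟨⟨ψ, hψ⟩, Subtype.ext e⟩

/-- The regular rank of the principal block passes to the quotient. -/
theorem blockRank_quotient :
    blockRank p (principalBlock Mi (G ⧸ N)) = blockRank p (principalBlock Mi G) := by
  classical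
  set W := Submodule.span ℂ ((fun χ : IrrCharacter G => pRegularPart p (χ : G → ℂ)) ''
    principalBlock Mi G)
  set V := Submodule.span ℂ ((fun χ : IrrCharacter (G ⧸ N) => pRegularPart p (χ : G ⧸ N → ℂ)) ''
    principalBlock Mi (G ⧸ N))
  show Module.finrank ℂ V = Module.finrank ℂ W
  haveI := Fintype.ofFinite G
  haveI := Fintype.ofFinite (G ⧸ N)
  haveI : FiniteDimensional ℂ V := FiniteDimensional.finiteDimensional_submodule _
  haveI : FiniteDimensional ℂ W := FiniteDimensional.finiteDimensional_submodule _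
  have hpull : ∀ ψ : IrrCharacter (G ⧸ N),
      pullReg p N (pRegularPart p (ψ : G ⧸ N → ℂ)) = pRegularPart p (inflateIrr N ψ : G → ℂ) := by
    intro ψ
    funext g
    show pRegularPart p (fun x : G => pRegularPart p (ψ : G ⧸ N → ℂ) (x : G ⧸ N)) g = _
    simp only [pRegularPart_apply]
    by_cases hg : p ∣ orderOf g
    · simp [hg]
    · simp only [hg, if_false, if_neg (not_dvd_orderOf_mk N hg)]
      rfl
  have hW : W ≤ V.map (pullReg p N) := by
    rw [Submodule.span_le]
    rintro _ ⟨χ, hχ, rfl⟩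
    obtain ⟨ψ, hψ, rfl⟩ := exists_inflateIrr_eq hM N hN hχ
    exact ⟨_, Submodule.subset_span ⟨ψ, hψ, rfl⟩, hpull ψ⟩
  have hV : V ≤ W.map (pushReg p N) := by
    rw [Submodule.span_le]
    rintro _ ⟨ψ, hψ, rfl⟩
    exact ⟨pRegularPart p (inflateIrr N ψ : G → ℂ), Submodule.subset_span
      ⟨_, (inflateIrr_mem_iff hM N hN ψ).2 hψ, rfl⟩,
      pushReg_pullReg (p := p) (Q := N) (ψ : G ⧸ N → ℂ)⟩
  exact le_antisymm ((Submodule.finrank_mono hV).trans (Submodule.finrank_map_le _ _))
    ((Submodule.finrank_mono hW).trans (Submodule.finrank_map_le _ _))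

end CfsgLib.AbelianTwo
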