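import Cfsg.Agent.Lib.AbelianTwo.SectionSum
import Cfsg.Agent.Lib.AbelianTwo.OddQuotient
import Cfsg.Agent.Lib.Involutions.Counting
import Mathlib.GroupTheory.Transfer

/-!
An abelian Sylow subgroup on which the normalizer fixes a subgroup `Z` pointwise and acts
semiregularly outside it: the principal block counted orbit by orbit, and passage to quotients.
-/

set_option autoImplicit false
set_option linter.unusedSectionVars false
set_option linter.style.haveILetI false

open Cfsg

namespace CfsgLib.AbelianTwo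

universe u

variable {G : Type u} [Group G] [Finite G] {p : ℕ} [Fact p.Prime]

/-- The normalizer fixes `Z` pointwise and is semiregular, modulo the centralizer, outside `Z`;
`e` is the index of the centralizer in the normalizer. -/
structure Orb (P : Sylow p G) (e : ℕ) (Z : Subgroup G) : Prop where
  comm : ∀ a ∈ (P : Subgroup G), ∀ b ∈ (P : Subgroup G), a * b = b * a
  le : Z ≤ (P : Subgroup G)
  fix : ∀ c ∈ Z, ∀ n ∈ Subgroup.normalizer ((P : Subgroup G) : Set G), n * c * n⁻¹ = c
  reg : ∀ a ∈ (P : Subgroup G), a ∉ Z →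
    ∀ n ∈ Subgroup.normalizer ((P : Subgroup G) : Set G), n * a * n⁻¹ = a →
      n ∈ Subgroup.centralizer ((P : Subgroup G) : Set G)
  card_e : (Subgroup.centralizer ((P : Subgroup G) : Set G)).relIndex
    (Subgroup.normalizer ((P : Subgroup G) : Set G)) = e

/-- An element whose stabilizer in the normalizer centralizes the Sylow subgroup has a centralizer
with a normal complement. -/
theorem hasNormalPComplement_centralizer (P : Sylow p G)
    (hc : ∀ a ∈ (P : Subgroup G), ∀ b ∈ (P : Subgroup G), a * b = b * a) {a : G}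
    (ha : a ∈ (P : Subgroup G))
    (hreg : ∀ n ∈ Subgroup.normalizer ((P : Subgroup G) : Set G), n * a * n⁻¹ = a →
      n ∈ Subgroup.centralizer ((P : Subgroup G) : Set G)) :
    HasNormalPComplement p (Subgroup.centralizer ({a} : Set G)) := by
  set K := Subgroup.centralizer ({a} : Set G)
  have hPK : (P : Subgroup G) ≤ K := fun b hb =>
    Subgroup.mem_centralizer_singleton_iff.2 (hc b hb a ha)
  let PK : Sylow p K := P.subtype hPK
  have hN : Subgroup.normalizer ((PK : Subgroup K) : Set K) ≤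
      Subgroup.centralizer ((PK : Subgroup K) : Set K) := by
    intro n hn
    have hnG : (n : G) ∈ Subgroup.normalizer ((P : Subgroup G) : Set G) := by
      refine Subgroup.mem_normalizer_iff.2 fun b => ⟨fun hb => ?_, fun hb => ?_⟩
      · exact (Subgroup.mem_normalizer_iff.1 hn ⟨b, hPK hb⟩).1 hb
      · have hbK : b ∈ K := by
          have := mul_mem (mul_mem (inv_mem n.2) (hPK hb)) n.2
          rwa [show (n : G)⁻¹ * ((n : G) * b * (n : G)⁻¹) * n = b by group] at this
        exact (Subgroup.mem_normalizer_iff.1 hn ⟨b, hbK⟩).2 hb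
    have hfix : (n : G) * a * (n : G)⁻¹ = a := by
      rw [Subgroup.mem_centralizer_singleton_iff.1 n.2, mul_inv_cancel_right]
    refine Subgroup.mem_centralizer_iff.2 fun b hb => Subtype.ext ?_
    exact Subgroup.mem_centralizer_iff.1 (hreg _ hnG hfix) _ hb
  exact ⟨PK, (MonoidHom.transferSylow PK hN).ker, inferInstance,
    MonoidHom.ker_transferSylow_isComplement' PK hN⟩

namespace Orb

variable {P : Sylow p G} {e : ℕ} {Z : Subgroup G} (h : Orb P e Z)
include h

theorem pos : 0 < e := by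
  rw [← h.card_e]
  exact Nat.pos_of_ne_zero Subgroup.index_ne_zero_of_finite

theorem isConj_iff_fixed {a b : G} (ha : a ∈ Z) (hb : b ∈ (P : Subgroup G)) :
    IsConj a b ↔ b = a := by
  refine ⟨fun hab => ?_, fun hab => hab ▸ IsConj.refl _⟩
  obtain ⟨n, hn, hne⟩ := exists_normalizer_of_isConj P h.comm (h.le ha) hb hab
  rw [← hne, h.fix a ha n hn]

theorem card_orbit {a : G} (ha : a ∈ (P : Subgroup G)) (haZ : a ∉ Z) :
    Nat.card {b : G // b ∈ (P : Subgroup G) ∧ IsConj a b} = e := by
  set N := Subgroup.normalizer ((P : Subgroup G) : Set G)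
  set C := Subgroup.centralizer ((P : Subgroup G) : Set G)
  have haN : a ∈ N := Subgroup.le_normalizer ha
  have h1 := Involutions.card_isConj_mul_card_centralizer (G := N) ⟨a, haN⟩
  have h2 : Subgroup.centralizer ({(⟨a, haN⟩ : N)} : Set N) = C.subgroupOf N := by
    ext n
    rw [Subgroup.mem_centralizer_singleton_iff, Subgroup.mem_subgroupOf]
    refine ⟨fun hn => h.reg a ha haZ n n.2 ?_, fun hn => Subtype.ext ?_⟩
    · have e1 : (n : G) * a = a * (n : G) := congrArg Subtype.val hn
      rw [e1, mul_inv_cancel_right]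
    · exact (Subgroup.mem_centralizer_iff.1 hn a ha).symm
  have h3 : Nat.card {g : N // IsConj (⟨a, haN⟩ : N) g} =
      Nat.card {b : G // b ∈ (P : Subgroup G) ∧ IsConj a b} := by
    refine Nat.card_congr
      { toFun := fun g => ⟨((g : N) : G), ?_, ?_⟩
        invFun := fun b => ⟨⟨b, Subgroup.le_normalizer b.2.1⟩, ?_⟩
        left_inv := fun g => rfl
        right_inv := fun b => rfl }
    · obtain ⟨c, hc⟩ := isConj_iff.1 g.2
      rw [← hc]
      exact (Subgroup.mem_normalizer_iff.1 c.2 a).1 ha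
    · obtain ⟨c, hc⟩ := isConj_iff.1 g.2
      exact isConj_iff.2 ⟨c, congrArg Subtype.val hc⟩
    · obtain ⟨n, hn, hne⟩ := exists_normalizer_of_isConj P h.comm ha b.2.1 b.2.2
      exact isConj_iff.2 ⟨⟨n, hn⟩, Subtype.ext hne⟩
  rw [← h3, ← h.card_e]
  refine Nat.eq_of_mul_eq_mul_right (Nat.card_pos (α := C.subgroupOf N)) ?_
  rw [Subgroup.relIndex, Subgroup.index_mul_card, ← h1, h2]

variable {Mi : Ideal AlgInt}

/-- Some finite set of representatives, containing `Z`, with the orbit count. -/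
theorem card_principalBlock_mul (hM : IsPModular p Mi) [Fintype Z] :
    ∃ s : ℕ, Nat.card (principalBlock Mi G) =
        (∑ c : Z, blockRank p (principalBlock Mi (Subgroup.centralizer ({(c : G)} : Set G)))) + s ∧
      s * e + Nat.card Z = Nat.card (P : Subgroup G) := by
  classical
  haveI := Fintype.ofFinite G
  haveI := Fintype.ofFinite (ConjClasses G)
  set S := Finset.univ.filter (fun g : G => g ∈ (P : Subgroup G) ∧ g ∉ Z) with hS
  have hsel : ∀ C : ConjClasses G, C ∈ S.image ConjClasses.mk →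
      ∃ x ∈ S, ConjClasses.mk x = C := fun C hC => Finset.mem_image.1 hC
  choose r hr using hsel
  set R := (S.image ConjClasses.mk).attach.image (fun C => r C.1 C.2) with hR
  set ZF := Finset.univ.filter (fun g : G => g ∈ Z) with hZF
  have hRS : ∀ x ∈ R, x ∈ (P : Subgroup G) ∧ x ∉ Z := by
    intro x hx
    obtain ⟨C, -, rfl⟩ := Finset.mem_image.1 hx
    exact (Finset.mem_filter.1 (hr C.1 C.2).1).2
  have hdisj : Disjoint ZF R := Finset.disjoint_left.2 fun x hx hx' =>
    (hRS x hx').2 (Finset.mem_filter.1 hx).2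
  have hRrep : ∀ g ∈ S, ∃! x, x ∈ R ∧ IsConj g x := by
    intro g hg
    have hC : ConjClasses.mk g ∈ S.image ConjClasses.mk := Finset.mem_image_of_mem _ hg
    refine ⟨r _ hC, ⟨Finset.mem_image.2 ⟨⟨_, hC⟩, Finset.mem_attach _ _, rfl⟩,
      ConjClasses.mk_eq_mk_iff_isConj.1 (hr _ hC).2.symm⟩, fun y hy => ?_⟩
    obtain ⟨C, -, rfl⟩ := Finset.mem_image.1 hy.1
    have e1 : C.1 = ConjClasses.mk g :=
      (hr C.1 C.2).2.symm.trans (ConjClasses.mk_eq_mk_iff_isConj.2 hy.2.symm)
    obtain ⟨C, hC'⟩ := C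
    subst e1
    rfl
  have hrep : ∀ g ∈ (P : Subgroup G), ∃! x, x ∈ ZF ∪ R ∧ IsConj g x := by
    intro g hg
    by_cases hgZ : g ∈ Z
    · refine ⟨g, ⟨Finset.mem_union_left _ (Finset.mem_filter.2 ⟨Finset.mem_univ _, hgZ⟩),
        IsConj.refl _⟩, fun y hy => ?_⟩
      refine (h.isConj_iff_fixed hgZ ?_).1 hy.2
      rcases Finset.mem_union.1 hy.1 with h' | h'
      · exact h.le (Finset.mem_filter.1 h').2
      · exact (hRS y h').1
    · obtain ⟨x, ⟨hx, hgx⟩, hu⟩ := hRrep g (Finset.mem_filter.2 ⟨Finset.mem_univ _, hg, hgZ⟩)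
      refine ⟨x, ⟨Finset.mem_union_right _ hx, hgx⟩, fun y hy => hu y ⟨?_, hy.2⟩⟩
      rcases Finset.mem_union.1 hy.1 with h' | h'
      · exact absurd ((h.isConj_iff_fixed (Finset.mem_filter.1 h').2 hg).1 hy.2.symm ▸
          (Finset.mem_filter.1 h').2) hgZ
      · exact h'
  have hcard : R.card * e = S.card := by
    have hmap : ∀ g ∈ S, ∃ x ∈ R, IsConj g x := fun g hg => by
      obtain ⟨x, ⟨hx, hgx⟩, -⟩ := hRrep g hg
      exact ⟨x, hx, hgx⟩
    choose! f hf using hmap
    rw [Finset.card_eq_sum_card_fiberwise (f := f) (t := R) fun g hg => (hf g hg).1]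
    rw [Finset.sum_congr rfl (g := fun _ => e) fun x hx => ?_, Finset.sum_const, smul_eq_mul]
    rw [← h.card_orbit (hRS x hx).1 (hRS x hx).2, Nat.card_eq_fintype_card, Fintype.card_subtype]
    refine congrArg Finset.card ?_
    ext g
    simp only [Finset.mem_filter, Finset.mem_univ, true_and]
    constructor
    · rintro ⟨hg, rfl⟩
      exact ⟨(Finset.mem_filter.1 hg).2.1, (hf g hg).2.symm⟩
    · rintro ⟨hgP, hxg⟩
      have hgZ : g ∉ Z := fun hgZ =>
        (hRS x hx).2 ((h.isConj_iff_fixed hgZ (hRS x hx).1).1 hxg.symm ▸ hgZ)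
      have hg : g ∈ S := Finset.mem_filter.2 ⟨Finset.mem_univ _, hgP, hgZ⟩
      obtain ⟨y, -, hu⟩ := hRrep g hg
      exact ⟨hg, (hu _ ⟨(hf g hg).1, (hf g hg).2⟩).trans (hu x ⟨hx, hxg.symm⟩).symm⟩
  refine ⟨R.card, ?_, ?_⟩
  · rw [card_principalBlock_eq_sum hM P (ZF ∪ R) (fun x hx => ?_) hrep,
      Finset.sum_union hdisj]
    · refine congrArg₂ (· + ·) ?_ ?_
      · exact Finset.sum_subtype ZF (fun x => by simp [hZF])
          (fun x => blockRank p (principalBlock Mi (Subgroup.centralizer ({x} : Set G))))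
      · rw [Finset.sum_congr rfl (g := fun _ => 1) fun x hx => ?_, Finset.sum_const, smul_eq_mul,
          mul_one]
        exact (blockRank_eq_one_iff hM).2 (hasNormalPComplement_centralizer P h.comm (hRS x hx).1
          (h.reg x (hRS x hx).1 (hRS x hx).2))
    · rcases Finset.mem_union.1 hx with h' | h'
      · exact h.le (Finset.mem_filter.1 h').2
      · exact (hRS x h').1
  · rw [hcard, show Nat.card Z = ZF.card by
        rw [hZF, Nat.card_eq_fintype_card, Fintype.card_subtype],
      show Nat.card (P : Subgroup G) = (Finset.univ.filter fun g : G => g ∈ (P : Subgroup G)).card by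
        rw [Nat.card_eq_fintype_card, Fintype.card_subtype],
      ← Finset.card_union_of_disjoint]
    · refine congrArg Finset.card ?_
      ext g
      simp only [hS, hZF, Finset.mem_union, Finset.mem_filter, Finset.mem_univ, true_and]
      exact ⟨fun h' => h'.elim (fun a => a.1) fun a => h.le a,
        fun hg => (em (g ∈ Z)).symm.imp (fun hn => ⟨hg, hn⟩) id⟩
    · exact Finset.disjoint_filter.2 fun g _ h' => h'.2

/-- The data pass to the centralizer of a fixed element. -/
theorem centralizer {c : G} (hc : c ∈ Z) :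
    ∃ Q : Sylow p (Subgroup.centralizer ({c} : Set G)),
      Orb Q e (Z.subgroupOf (Subgroup.centralizer ({c} : Set G))) ∧
      Nat.card Q = Nat.card (P : Subgroup G) ∧
      Nat.card (Z.subgroupOf (Subgroup.centralizer ({c} : Set G))) = Nat.card Z ∧
      (∀ a : Subgroup.centralizer ({c} : Set G), a ∈ (Q : Subgroup _) ↔ (a : G) ∈ (P : Subgroup G)) := by
  set K := Subgroup.centralizer ({c} : Set G)
  have hNK : Subgroup.normalizer ((P : Subgroup G) : Set G) ≤ K := fun n hn =>
    Subgroup.mem_centralizer_singleton_iff.2 (by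
      have := h.fix c hc n hn
      rwa [mul_inv_eq_iff_eq_mul] at this)
  have hPK : (P : Subgroup G) ≤ K := Subgroup.le_normalizer.trans hNK
  have hnorm : ∀ n : K, n ∈ Subgroup.normalizer ((P.subtype hPK : Subgroup K) : Set K) ↔
      (n : G) ∈ Subgroup.normalizer ((P : Subgroup G) : Set G) := by
    intro n
    refine ⟨fun hn => Subgroup.mem_normalizer_iff.2 fun b => ⟨fun hb => ?_, fun hb => ?_⟩,
      fun hn => Subgroup.mem_normalizer_iff.2 fun b => Subgroup.mem_normalizer_iff.1 hn b⟩
    · exact (Subgroup.mem_normalizer_iff.1 hn ⟨b, hPK hb⟩).1 hb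
    · have hbK : b ∈ K := by
        have := mul_mem (mul_mem (inv_mem n.2) (hPK hb)) n.2
        rwa [show (n : G)⁻¹ * ((n : G) * b * (n : G)⁻¹) * n = b by group] at this
      exact (Subgroup.mem_normalizer_iff.1 hn ⟨b, hbK⟩).2 hb
  have hcent : ∀ n : K, n ∈ Subgroup.centralizer ((P.subtype hPK : Subgroup K) : Set K) ↔
      (n : G) ∈ Subgroup.centralizer ((P : Subgroup G) : Set G) := by
    intro n
    refine ⟨fun hn => Subgroup.mem_centralizer_iff.2 fun b hb => ?_,
      fun hn => Subgroup.mem_centralizer_iff.2 fun b hb =>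
        Subtype.ext (Subgroup.mem_centralizer_iff.1 hn (b : G) hb)⟩
    exact congrArg Subtype.val (Subgroup.mem_centralizer_iff.1 hn ⟨b, hPK hb⟩ hb)
  refine ⟨P.subtype hPK, ⟨fun a ha b hb => Subtype.ext (h.comm a ha b hb), fun a ha => h.le ha,
    fun a ha n hn => Subtype.ext (h.fix a ha n ((hnorm n).1 hn)),
    fun a ha haZ n hn hfix => (hcent n).2
      (h.reg a ha haZ n ((hnorm n).1 hn) (congrArg Subtype.val hfix)), ?_⟩,
    Nat.card_congr (Subgroup.subgroupOfEquivOfLe hPK).toEquiv,
    Nat.card_congr (Subgroup.subgroupOfEquivOfLe (h.le.trans hPK)).toEquiv, fun a => Iff.rfl⟩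
  rw [show Subgroup.normalizer ((P.subtype hPK : Subgroup K) : Set K) =
      (Subgroup.normalizer ((P : Subgroup G) : Set G)).subgroupOf K from
      Subgroup.ext fun n => by rw [hnorm, Subgroup.mem_subgroupOf],
    show Subgroup.centralizer ((P.subtype hPK : Subgroup K) : Set K) =
      (Subgroup.centralizer ((P : Subgroup G) : Set G)).subgroupOf K from
      Subgroup.ext fun n => by rw [hcent, Subgroup.mem_subgroupOf],
    Subgroup.relIndex_subgroupOf hNK, h.card_e]

/-- The data pass to a quotient whose kernel meets `P` in a subgroup of `Z`. -/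
theorem map {L : Type u} [Group L] [Finite L] (π : G →* L) (hπ : Function.Surjective π)
    (hcop : e.Coprime p) (hker : ∀ a ∈ (P : Subgroup G), π a = 1 → a ∈ Z) :
    ∃ Q : Sylow p L, Orb Q e (Z.map π) ∧ (Q : Subgroup L) = (P : Subgroup G).map π ∧
      Nat.card Q * Nat.card (π.ker ⊓ (P : Subgroup G) : Subgroup G) = Nat.card (P : Subgroup G) := by
  set Q := P.mapSurjective hπ
  have hQ : (Q : Subgroup L) = (P : Subgroup G).map π := Sylow.coe_mapSurjective _ _
  set N := Subgroup.normalizer ((P : Subgroup G) : Set G)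
  set C := Subgroup.centralizer ((P : Subgroup G) : Set G)
  -- lifting the normalizer
  have hlift : ∀ l ∈ Subgroup.normalizer ((Q : Subgroup L) : Set L), ∃ n ∈ N, π n = l := by
    intro l hl
    obtain ⟨g, rfl⟩ := hπ l
    set R := (Q : Subgroup L).comap π
    have hPR : (P : Subgroup G) ≤ R := fun a ha => by
      show π a ∈ (Q : Subgroup L)
      rw [hQ]; exact ⟨a, ha, rfl⟩
    have hgP : (g • P : Sylow p G).toSubgroup ≤ R := by
      intro a ha
      rw [Sylow.coe_subgroup_smul, Subgroup.mem_pointwise_smul_iff_inv_smul_mem,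
        MulAut.smul_def, MulAut.conj_inv_apply] at ha
      show π a ∈ (Q : Subgroup L)
      have h1 := (Subgroup.mem_normalizer_iff.1 hl (π (g⁻¹ * a * g))).1 (hPR ha)
      rwa [← map_inv, ← map_mul, ← map_mul, show g * (g⁻¹ * a * g) * g⁻¹ = a by group] at h1
    obtain ⟨r, hr⟩ := MulAction.exists_smul_eq R ((g • P : Sylow p G).subtype hgP) (P.subtype hPR)
    have hn : (r : G) * g ∈ N := by
      refine Subgroup.mem_normalizer_iff.2 fun a => ?_
      have key : ∀ b : R, b ∈ (P.subtype hPR : Subgroup R) ↔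
          (r⁻¹ * b * r : R) ∈ ((g • P : Sylow p G).subtype hgP : Subgroup R) := by
        intro b
        rw [← hr, Sylow.coe_subgroup_smul, Subgroup.mem_pointwise_smul_iff_inv_smul_mem,
          MulAut.smul_def, MulAut.conj_inv_apply]
      constructor
      · intro ha
        have h1 : g * a * g⁻¹ ∈ (g • P : Sylow p G).toSubgroup := by
          rw [Sylow.coe_subgroup_smul, Subgroup.mem_pointwise_smul_iff_inv_smul_mem,
            MulAut.smul_def, MulAut.conj_inv_apply]
          rwa [show g⁻¹ * (g * a * g⁻¹) * g = a by group]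
        have h2 := (key (r * ⟨g * a * g⁻¹, hgP h1⟩ * r⁻¹)).2 (by
          rw [show r⁻¹ * (r * ⟨g * a * g⁻¹, hgP h1⟩ * r⁻¹) * r = ⟨g * a * g⁻¹, hgP h1⟩ by group]
          exact h1)
        have h3 : (r : G) * (g * a * g⁻¹) * (r : G)⁻¹ ∈ (P : Subgroup G) := h2
        rwa [show (r : G) * g * a * ((r : G) * g)⁻¹ = r * (g * a * g⁻¹) * (r : G)⁻¹ by group]
      · intro ha
        have h2 := (key ⟨_, hPR ha⟩).1 ha
        have h3 : (r : G)⁻¹ * ((r : G) * g * a * ((r : G) * g)⁻¹) * r ∈
            (g • P : Sylow p G).toSubgroup := h2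
        rw [Sylow.coe_subgroup_smul, Subgroup.mem_pointwise_smul_iff_inv_smul_mem,
          MulAut.smul_def, MulAut.conj_inv_apply] at h3
        rwa [show g⁻¹ * ((r : G)⁻¹ * ((r : G) * g * a * ((r : G) * g)⁻¹) * r) * g = a by group] at h3
    obtain ⟨b, hb, hbr⟩ := (show π r ∈ (P : Subgroup G).map π from hQ ▸ r.2)
    exact ⟨b⁻¹ * ((r : G) * g), mul_mem (inv_mem (Subgroup.le_normalizer hb)) hn,
      by rw [map_mul, map_mul, map_inv, hbr, inv_mul_cancel_left]⟩
  -- an element fixing `a` modulo the kernel fixes `a`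
  have hfixker : ∀ n ∈ N, ∀ a ∈ (P : Subgroup G),
      π n * π a * (π n)⁻¹ = π a → n * a * n⁻¹ = a := by
    intro n hn a ha heq
    set c := a⁻¹ * (n * a * n⁻¹) with hc
    have hcP : c ∈ (P : Subgroup G) :=
      mul_mem ((P : Subgroup G).inv_mem ha) ((Subgroup.mem_normalizer_iff.1 hn a).1 ha)
    have hcZ : c ∈ Z := hker c hcP (by
      rw [hc]; simp only [map_mul, map_inv]; rw [heq, inv_mul_cancel])
    have hna : n * a * n⁻¹ = a * c := by rw [hc, mul_inv_cancel_left]
    have hstep : ∀ j : ℕ, n ^ j * a * (n ^ j)⁻¹ = a * c ^ j := by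
      intro j
      induction j with
      | zero => simp
      | succ j ih =>
        calc n ^ (j + 1) * a * (n ^ (j + 1))⁻¹ = n * (n ^ j * a * (n ^ j)⁻¹) * n⁻¹ := by
              rw [pow_succ']; group
          _ = (n * a * n⁻¹) * (n * c ^ j * n⁻¹) := by rw [ih]; group
          _ = a * c ^ (j + 1) := by
              rw [hna, h.fix _ (pow_mem hcZ j) n hn, mul_assoc, ← pow_succ']
    haveI : ((C.subgroupOf N)).Normal := by
      refine ⟨fun k hk m => Subgroup.mem_subgroupOf.2 (Subgroup.mem_centralizer_iff.2 fun b hb => ?_)⟩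
      have hb' : (m : G)⁻¹ * b * m ∈ (P : Subgroup G) := by
        have h4 := (Subgroup.mem_normalizer_iff.1 (inv_mem m.2) b).1 hb
        rwa [inv_inv] at h4
      have h5 := Subgroup.mem_centralizer_iff.1 (Subgroup.mem_subgroupOf.1 hk) _ hb'
      simp only [Subgroup.coe_mul, Subgroup.coe_inv]
      calc b * ((m : G) * k * (m : G)⁻¹) = m * (((m : G)⁻¹ * b * m) * k) * (m : G)⁻¹ := by group
        _ = m * (k * ((m : G)⁻¹ * b * m)) * (m : G)⁻¹ := by rw [h5]
        _ = (m : G) * k * (m : G)⁻¹ * b := by group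
    have hpow : n ^ e ∈ C := by
      have h6 : ((⟨n, hn⟩ : N) : N ⧸ C.subgroupOf N) ^ e = 1 := by
        rw [← h.card_e]; exact pow_card_eq_one'
      rw [← QuotientGroup.mk_pow, QuotientGroup.eq_one_iff, Subgroup.mem_subgroupOf] at h6
      exact h6
    have hce : c ^ e = 1 := by
      have h7 := hstep e
      rw [← Subgroup.mem_centralizer_iff.1 hpow a ha, mul_inv_cancel_right] at h7
      exact mul_left_cancel (h7.symm.trans (mul_one a).symm)
    obtain ⟨k, hk⟩ := IsPGroup.iff_orderOf.1 P.isPGroup' ⟨c, hcP⟩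
    rw [Subgroup.orderOf_mk] at hk
    have hc1 : c = 1 := orderOf_eq_one_iff.1 (Nat.eq_one_of_dvd_coprimes (hcop.pow_right k)
      (orderOf_dvd_of_pow_eq_one hce) (hk ▸ dvd_rfl))
    rw [hna, hc1, mul_one]
  have hmemQ : ∀ l, l ∈ (Q : Subgroup L) ↔ ∃ a ∈ (P : Subgroup G), π a = l := fun l => by
    rw [hQ]; exact Iff.rfl
  refine ⟨Q, ⟨?_, ?_, ?_, ?_, ?_⟩, hQ, ?_⟩
  · intro a ha b hb
    obtain ⟨a, ha', rfl⟩ := (hmemQ a).1 ha
    obtain ⟨b, hb', rfl⟩ := (hmemQ b).1 hb
    rw [← map_mul, h.comm a ha' b hb', map_mul]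
  · rw [hQ]; exact Subgroup.map_mono h.le
  · rintro _ ⟨c, hc, rfl⟩ l hl
    obtain ⟨n, hn, rfl⟩ := hlift l hl
    rw [← map_inv, ← map_mul, ← map_mul, h.fix c hc n hn]
  · intro a ha haZ l hl hfix
    obtain ⟨a, ha', rfl⟩ := (hmemQ a).1 ha
    obtain ⟨n, hn, rfl⟩ := hlift l hl
    have hnC := h.reg a ha' (fun hz => haZ ⟨a, hz, rfl⟩) n hn (hfixker n hn a ha' hfix)
    refine Subgroup.mem_centralizer_iff.2 fun b hb => ?_
    obtain ⟨b, hb', rfl⟩ := (hmemQ b).1 hb
    rw [← map_mul, Subgroup.mem_centralizer_iff.1 hnC b hb', map_mul]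
  · rw [← h.card_e, Subgroup.relIndex, Subgroup.relIndex]
    set NL := Subgroup.normalizer ((Q : Subgroup L) : Set L)
    have hmap : ∀ n ∈ N, π n ∈ NL := by
      intro n hn
      refine Subgroup.mem_normalizer_iff.2 fun l => ⟨fun hl => ?_, fun hl => ?_⟩
      · obtain ⟨a, ha, rfl⟩ := (hmemQ l).1 hl
        exact (hmemQ _).2 ⟨n * a * n⁻¹, (Subgroup.mem_normalizer_iff.1 hn a).1 ha, by simp⟩
      · obtain ⟨a, ha, hal⟩ := (hmemQ _).1 hl
        refine (hmemQ l).2 ⟨n⁻¹ * a * n, ?_, ?_⟩
        · have h4 := (Subgroup.mem_normalizer_iff.1 (inv_mem hn) a).1 ha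
          rwa [inv_inv] at h4
        · rw [map_mul, map_mul, map_inv, hal]; group
    let f : N →* NL := (π.comp N.subtype).codRestrict NL fun n => hmap n n.2
    have hf : Function.Surjective f := fun l => by
      obtain ⟨n, hn, hnl⟩ := hlift l l.2
      exact ⟨⟨n, hn⟩, Subtype.ext hnl⟩
    rw [← Subgroup.index_comap_of_surjective _ hf]
    congr 1
    ext n
    rw [Subgroup.mem_comap, Subgroup.mem_subgroupOf, Subgroup.mem_subgroupOf]
    constructor
    · intro hnl
      refine Subgroup.mem_centralizer_iff.2 fun a ha => ?_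
      have h8 : π a * π n = π n * π a :=
        Subgroup.mem_centralizer_iff.1 hnl _ ((hmemQ _).2 ⟨a, ha, rfl⟩)
      have h9 := hfixker n n.2 a ha (by rw [← h8, mul_inv_cancel_right])
      exact (mul_inv_eq_iff_eq_mul.1 h9).symm
    · intro hnC
      refine Subgroup.mem_centralizer_iff.2 fun l hl => ?_
      obtain ⟨a, ha, rfl⟩ := (hmemQ l).1 hl
      show π a * π n = π n * π a
      rw [← map_mul, Subgroup.mem_centralizer_iff.1 hnC a ha, map_mul]
  · let φ := π.comp (P : Subgroup G).subtype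
    have hr : φ.range = (Q : Subgroup L) := by
      rw [hQ, MonoidHom.range_comp, Subgroup.range_subtype]
    have hk : Nat.card φ.ker = Nat.card (π.ker ⊓ (P : Subgroup G) : Subgroup G) :=
      Nat.card_congr
        { toFun := fun a => ⟨((a : (P : Subgroup G)) : G), a.2, a.1.2⟩
          invFun := fun a => ⟨⟨a, a.2.2⟩, a.2.1⟩
          left_inv := fun a => rfl
          right_inv := fun a => rfl }
    rw [← hk, ← show Nat.card φ.range = Nat.card Q by rw [hr],
      ← Nat.card_congr (QuotientGroup.quotientKerEquivRange φ).toEquiv]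
    exact (Subgroup.card_eq_card_quotient_mul_card_subgroup _).symm

end Orb

end CfsgLib.AbelianTwo
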