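import Cfsg.Agent.Lib.AbelianTwo.Fpf
import Cfsg.Agent.Lib.AbelianTwo.Homocyclic
import Cfsg.Agent.Lib.BlockLocal.HomocyclicBrauer
import Cfsg.Agent.Lib.TwoFusion.RankTwoClassify
import Cfsg.Agent.S0205

/-!
A semiregular action of prime order on an abelian Sylow 2-subgroup: the regular rank of the
principal block, and the order of the subgroup in the non-solvable case.
-/

set_option autoImplicit false
set_option linter.unusedSectionVars false
set_option linter.style.haveILetI false

open Cfsg

namespace CfsgLib.AbelianTwo.Orb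

universe u

variable {G : Type u} [Group G] [Finite G] {P : Sylow 2 G} {e : ℕ}

/-- With a prime number of automorphisms their group is commutative. -/
theorem commutator_mem_of_prime {Z : Subgroup G} (h : Orb P e Z) (he : e.Prime) {a b : G}
    (ha : a ∈ Subgroup.normalizer ((P : Subgroup G) : Set G))
    (hb : b ∈ Subgroup.normalizer ((P : Subgroup G) : Set G)) :
    a * b * a⁻¹ * b⁻¹ ∈ Subgroup.centralizer ((P : Subgroup G) : Set G) := by
  set N := Subgroup.normalizer ((P : Subgroup G) : Set G)
  set C := Subgroup.centralizer ((P : Subgroup G) : Set G)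
  have hker : C.subgroupOf N = (Subgroup.normalizerMonoidHom (P : Subgroup G)).ker :=
    (Subgroup.normalizerMonoidHom_ker _).symm
  haveI : (C.subgroupOf N).Normal := hker ▸ inferInstance
  haveI : Fact e.Prime := ⟨he⟩
  haveI : IsCyclic (N ⧸ C.subgroupOf N) := isCyclic_of_prime_card h.card_e
  letI := IsCyclic.commGroup (α := N ⧸ C.subgroupOf N)
  have h2 : (((⟨a, ha⟩ : N) * ⟨b, hb⟩ * (⟨a, ha⟩ : N)⁻¹ * (⟨b, hb⟩ : N)⁻¹ : N) : N ⧸ C.subgroupOf N)
      = 1 := by
    rw [QuotientGroup.mk_mul, QuotientGroup.mk_mul, QuotientGroup.mk_mul, QuotientGroup.mk_inv,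
      QuotientGroup.mk_inv, mul_comm ((⟨a, ha⟩ : N) : N ⧸ C.subgroupOf N), mul_inv_cancel_right,
      mul_inv_cancel]
  rw [QuotientGroup.eq_one_iff, Subgroup.mem_subgroupOf] at h2
  exact h2

/-- A semiregular action of prime order: the rank, and solvability unless the action is
transitive. -/
theorem blockRank_prime (h : Orb P e ⊥) {Mi : Ideal AlgInt} (hM : IsPModular 2 Mi)
    (he : e.Prime) (hodd : Odd e) (hO : oddCore G = ⊥) :
    blockRank 2 (principalBlock Mi G) = e ∧
      (Group.IsSolvable G ∨ Nat.card (P : Subgroup G) = e + 1) := by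
  classical
  haveI : Fact (Nat.Prime 2) := ⟨Nat.prime_two⟩
  haveI := Fintype.ofFinite G
  haveI : Fintype (P : Subgroup G) := Fintype.ofFinite _
  have hcom : ∀ a ∈ Subgroup.normalizer ((P : Subgroup G) : Set G),
      ∀ b ∈ Subgroup.normalizer ((P : Subgroup G) : Set G),
        a * b * a⁻¹ * b⁻¹ ∈ Subgroup.centralizer ((P : Subgroup G) : Set G) :=
    fun a ha b hb => commutator_mem_of_prime h he ha hb
  by_cases hPn : (P : Subgroup G).Normal
  · haveI := hPn
    refine ⟨h.blockRank_normal' hM hO hcom, Or.inl ?_⟩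
    haveI : Group.IsSolvable (P : Subgroup G) := Group.isSolvable_of_comm fun a b =>
      Subtype.ext (h.comm a a.2 b b.2)
    haveI : Group.IsSolvable (G ⧸ (P : Subgroup G)) := Cfsg.Agent.S0205.result
      (Nat.not_even_iff_odd.1 fun hev => Sylow.not_dvd_index P
        (by rw [Subgroup.index_eq_card]; exact even_iff_two_dvd.1 hev))
    exact Group.isSolvable_of_ker_le_range (P : Subgroup G).subtype
      (QuotientGroup.mk' (P : Subgroup G)) (by simp)
  -- the elements of square one
  set W := omega P h.comm with hW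
  have hWP : W ≤ (P : Subgroup G) := fun a ha => ha.1
  have he3 : 3 ≤ e := by
    have := he.two_le
    obtain ⟨j, hj⟩ := hodd
    omega
  have hP1 : Nat.card (P : Subgroup G) ≠ 1 := fun h1 => hPn (by
    rw [Subgroup.card_eq_one.1 h1]; infer_instance)
  obtain ⟨t, ht⟩ : ∃ t : (P : Subgroup G), orderOf t = 2 := by
    refine exists_prime_orderOf_dvd_card' 2 ?_
    obtain ⟨k, hk⟩ := IsPGroup.iff_card.1 P.isPGroup'
    rw [hk] at hP1 ⊢
    exact dvd_pow_self 2 fun hk0 => hP1 (by rw [hk0, pow_zero])
  have ht' : orderOf (t : G) = 2 := by rw [Subgroup.orderOf_coe]; exact ht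
  have ht1 : (t : G) ∉ (⊥ : Subgroup G) := fun hm => by
    rw [Subgroup.mem_bot.1 hm, orderOf_one] at ht'; omega
  have horb : e + 1 ≤ Nat.card W := by
    rw [← h.card_orbit t.2 ht1, ← Finite.card_option]
    refine Nat.card_le_card_of_injective (fun o : Option {b : G // b ∈ (P : Subgroup G) ∧ IsConj (t : G) b} =>
      (match o with
        | none => 1
        | some b => ⟨b.1, b.2.1, by
            obtain ⟨c, hc⟩ := isConj_iff.1 b.2.2
            rw [← hc, show c * (t : G) * c⁻¹ * (c * t * c⁻¹) = c * ((t : G) * t) * c⁻¹ by group,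
              Involutions.mul_self_eq_one ht', mul_one, mul_inv_cancel]⟩ : W)) ?_
    have hne : ∀ b : {b : G // b ∈ (P : Subgroup G) ∧ IsConj (t : G) b}, (b : G) ≠ 1 := fun b e1 => by
      have h2 := b.2.2
      rw [e1, isConj_one_left] at h2
      rw [h2, orderOf_one] at ht'; omega
    rintro (_ | a) (_ | b) e1
    · rfl
    · exact absurd (congrArg Subtype.val e1).symm (hne b)
    · exact absurd (congrArg Subtype.val e1) (hne a)
    · have e2 : (a : G) = b := congrArg (fun z : W => (z : G)) e1
      exact congrArg some (Subtype.ext e2)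
  obtain ⟨i, hi, hi'⟩ := (Nat.dvd_prime_pow Nat.prime_two).1
    (show Nat.card W ∣ 2 ^ _ from (Subgroup.card_dvd_of_le hWP).trans
      (dvd_of_eq (IsPGroup.iff_card.1 P.isPGroup').choose_spec))
  have hi2 : 2 ≤ i := by
    by_contra hlt
    interval_cases i <;> omega
  by_cases hi3 : 3 ≤ i
  · -- rank at least three
    have hH : Hyp P := ⟨h.comm, ⟨W, hWP, fun a ha => ha.2, by
      rw [hi']; exact (show 8 = 2 ^ 3 by norm_num).le.trans (Nat.pow_le_pow_right (by norm_num) hi3)⟩,
      h.nilp, hO⟩
    have h8 : 8 ≤ Nat.card (P : Subgroup G) := by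
      obtain ⟨E, hE, -, h8⟩ := hH.rank
      exact h8.trans (Subgroup.card_le_of_le hE)
    obtain ⟨h1, h2⟩ := h.blockRank_not_normal' hM hPn hO
      (fun g hg => hH.mul_self_eq_one_of_not_normal hPn hg) h8 hcom
    exact ⟨h1, Or.inr h2.symm⟩
  -- rank two
  have hi2' : i = 2 := by omega
  subst hi2'
  have he' : e = 3 := by rw [hi'] at horb; omega
  obtain ⟨n, hnN, hnC⟩ : ∃ n, n ∈ Subgroup.normalizer ((P : Subgroup G) : Set G) ∧
      n ∉ Subgroup.centralizer ((P : Subgroup G) : Set G) := by
    by_contra hcon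
    push Not at hcon
    have h1 := h.card_e
    rw [Subgroup.relIndex_eq_one.2 hcon] at h1
    omega
  set α : MulAut (P : Subgroup G) :=
    Subgroup.normalizerMonoidHom (P : Subgroup G) ⟨n, hnN⟩ with hα
  have hα3 : α ^ 3 = 1 := by
    set N := Subgroup.normalizer ((P : Subgroup G) : Set G)
    set C := Subgroup.centralizer ((P : Subgroup G) : Set G)
    have hker : C.subgroupOf N = (Subgroup.normalizerMonoidHom (P : Subgroup G)).ker :=
      (Subgroup.normalizerMonoidHom_ker _).symm
    haveI : (C.subgroupOf N).Normal := hker ▸ inferInstance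
    rw [hα, ← map_pow, ← MonoidHom.mem_ker, ← hker, ← QuotientGroup.eq_one_iff,
      QuotientGroup.mk_pow, ← he', ← h.card_e]
    exact pow_card_eq_one'
  have hTri : TwoFusion.RankTwo.Tri α := by
    refine ⟨inferInstance, P.isPGroup', ⟨1, by rw [pow_one]; exact hα3⟩,
      fun a _ => Subgroup.mem_center_iff.2 fun b => Subtype.ext (h.comm b b.2 a a.2), ?_,
      fun a _ ha hfix => ?_⟩
    · rw [show (4 : ℕ) = Nat.card W by rw [hi']; norm_num]
      exact Nat.card_congr
        { toFun := fun a => ⟨(a.1 : G), a.1.2, congrArg Subtype.val a.2⟩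
          invFun := fun a => ⟨⟨a.1, a.2.1⟩, Subtype.ext a.2.2⟩
          left_inv := fun a => rfl
          right_inv := fun a => rfl }
    · refine hnC (h.reg a a.2 (fun hm => ha (Subtype.ext (Subgroup.mem_bot.1 hm))) n hnN ?_)
      exact congrArg Subtype.val hfix
  obtain ⟨m, hm, hm'⟩ := hTri.homocyclic fun a b => Subtype.ext (h.comm a a.2 b b.2)
  rcases Nat.lt_or_ge m 2 with hm2 | hm2
  · have h4 : Nat.card (P : Subgroup G) = 4 := by
      obtain ⟨f⟩ := hm'
      rw [Nat.card_congr f.toEquiv, Nat.card_congr Multiplicative.toAdd, Nat.card_prod,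
        Nat.card_zmod, show m = 1 by omega]
      norm_num
    exact ⟨(h.blockRank_klein hM he' h4).trans he'.symm, Or.inr (by omega)⟩
  · exfalso
    refine hPn (BlockLocal.normal_of_homocyclic hm2 (Nat.card G) G rfl P hm' fun N hN hNodd => ?_)
    rw [← le_bot_iff, ← hO]
    exact le_sSup ⟨hN, Nat.coprime_two_right.2 hNodd⟩

end CfsgLib.AbelianTwo.Orb
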