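import Cfsg.Agent.Lib.AbelianTwo.Orb
import Cfsg.Agent.Lib.AbelianTwo.OddQuotient
import Cfsg.Agent.Lib.ZerosCodegree.RankQuotient
import Cfsg.Agent.Lib.FusionBasics.ZStar
import Cfsg.Agent.Lib.Involutions.BrauerSuzuki
import Cfsg.Agent.Lib.GWApps.HalfClasses.Central
import Cfsg.Agent.Lib.Cores.PCore
import Cfsg.Agent.S0205

/-!
Dividing out the odd core and the fixed subgroup, and the resulting count of the principal block.
-/

set_option autoImplicit false
set_option linter.unusedSectionVars false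
set_option linter.style.haveILetI false

open Cfsg

namespace CfsgLib.AbelianTwo.Orb

universe u

variable {G : Type u} [Group G] [Finite G] {Mi : Ideal AlgInt}

/-- A section with semiregular action has the same regular rank, and the same solvability. -/
theorem exists_reduced' {P : Sylow 2 G} {e : ℕ} {Z : Subgroup G} (h : Orb P e Z)
    (hM : IsPModular 2 Mi) (hodd : Odd e) :
    ∃ (L : Type u) (_ : Group L) (_ : Finite L) (Q : Sylow 2 L), Orb Q e ⊥ ∧ oddCore L = ⊥ ∧
      Nat.card (Q : Subgroup L) * Nat.card Z = Nat.card (P : Subgroup G) ∧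
      ((∀ a ∈ (P : Subgroup G), a * a = 1) → ∀ a ∈ (Q : Subgroup L), a * a = 1) ∧
      blockRank 2 (principalBlock Mi G) = blockRank 2 (principalBlock Mi L) ∧
      (Group.IsSolvable L → Group.IsSolvable G) := by
  haveI : Fact (Nat.Prime 2) := ⟨Nat.prime_two⟩
  haveI := Blocks.isPrime_of_isPModular hM
  have hcop : e.Coprime 2 := Nat.coprime_two_right.2 hodd
  haveI : (oddCore G).Normal := Subgroup.sSup_normal _ fun _ hN => hN.1
  set O := oddCore G
  have hOodd : Odd (Nat.card O) := CfsgLib.Cores.odd_card_oddCore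
  set π := QuotientGroup.mk' O with hπdef
  have hinf : ∀ a ∈ (P : Subgroup G), π a = 1 → a = 1 := by
    intro a ha hπ
    have haO : a ∈ O := (QuotientGroup.eq_one_iff a).1 hπ
    obtain ⟨k, hk⟩ := IsPGroup.iff_orderOf.1 P.isPGroup' ⟨a, ha⟩
    rw [Subgroup.orderOf_mk] at hk
    exact orderOf_eq_one_iff.1 (Nat.eq_one_of_dvd_coprimes
      ((Nat.coprime_two_right.2 hOodd).pow_right k) (Subgroup.orderOf_dvd_natCard _ haO)
      (hk ▸ dvd_rfl))
  obtain ⟨Q, hQ, hQmap, hQcard⟩ := h.map π (QuotientGroup.mk'_surjective O) hcop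
    fun a ha hπ => by rw [hinf a ha hπ]; exact Z.one_mem
  have hPk : Nat.card (π.ker ⊓ (P : Subgroup G) : Subgroup G) = 1 :=
    Subgroup.card_eq_one.2 (le_bot_iff.1 fun a ha =>
      Subgroup.mem_bot.2 (hinf a ha.2 (MonoidHom.mem_ker.1 ha.1)))
  rw [hPk, mul_one] at hQcard
  set Z1 := Z.map π
  have hZ1card : Nat.card Z1 = Nat.card Z := by
    refine (Nat.card_congr (Equiv.ofBijective (fun a : Z => (⟨π a, a, a.2, rfl⟩ : Z1)) ⟨?_, ?_⟩)).symm
    · intro a b hab
      have h1 : π ((a : G)⁻¹ * b) = 1 := by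
        rw [map_mul, map_inv, inv_mul_eq_one]; exact congrArg Subtype.val hab
      exact Subtype.ext (inv_mul_eq_one.1 (hinf _ (mul_mem (inv_mem (h.le a.2)) (h.le b.2)) h1))
    · rintro ⟨_, a, ha, rfl⟩
      exact ⟨⟨a, ha⟩, rfl⟩
  have hcen : Z1 ≤ Subgroup.center (G ⧸ O) := by
    rintro _ ⟨c, hc, rfl⟩
    refine Subgroup.mem_center_iff.2 fun q => ?_
    obtain ⟨g, rfl⟩ := QuotientGroup.mk'_surjective O q
    have h1 := FusionBasics.commutator_mem_oddCore_of_isolated
      (fun H _ _ R t ht _ hiso => Involutions.zstar_isolated R ht hiso) (Nat.card G) G rfl P c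
      (h.le hc) (fun j g hg => (h.isConj_iff_fixed (pow_mem hc j) hg).1 (isConj_iff.2 ⟨g, rfl⟩)) g
    have h2 : π (c * g * c⁻¹ * g⁻¹) = 1 := (QuotientGroup.eq_one_iff _).2 h1
    rw [map_mul, map_mul, map_mul, map_inv, map_inv, mul_inv_eq_one, mul_inv_eq_iff_eq_mul] at h2
    exact h2.symm
  haveI : Z1.Normal := ⟨fun a ha g => by
    rw [Subgroup.mem_center_iff.1 (hcen ha) g, mul_inv_cancel_right]; exact ha⟩
  set ρ := QuotientGroup.mk' Z1 with hρdef
  obtain ⟨R, hR, hRmap, hRcard⟩ := hQ.map ρ (QuotientGroup.mk'_surjective Z1) hcop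
    fun a _ ha => (QuotientGroup.eq_one_iff a).1 ha
  have hQk : (ρ.ker ⊓ (Q : Subgroup (G ⧸ O)) : Subgroup (G ⧸ O)) = Z1 := by
    rw [hρdef, QuotientGroup.ker_mk']
    exact inf_eq_left.2 hQ.le
  rw [hQk, hZ1card, hQcard] at hRcard
  have hbot : Z1.map ρ = ⊥ := by
    rw [Subgroup.map_eq_bot_iff, hρdef, QuotientGroup.ker_mk']
  rw [hbot] at hR
  have hZ2 : IsPGroup 2 Z1 := Q.isPGroup'.to_le hQ.le
  refine ⟨(G ⧸ O) ⧸ Z1, inferInstance, inferInstance, R, hR,
    GWApps.HalfClasses.oddCore_quotient_eq_bot (CfsgLib.Cores.pPrimeCore_quotient_pPrimeCore 2) Z1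
      hcen hZ2, hRcard, fun hel a ha => ?_, ?_, fun hL => ?_⟩
  · rw [hRmap] at ha
    obtain ⟨b, hb, rfl⟩ := ha
    rw [hQmap] at hb
    obtain ⟨c, hc, rfl⟩ := hb
    rw [← map_mul, ← map_mul, hel c hc, map_one, map_one]
  · rw [← ZerosCodegree.blockRank_principalBlock_quotient hM hZ2
      (fun g _ q hq => Subgroup.mem_center_iff.1 (hcen hq) g),
      blockRank_quotient hM O (Nat.two_dvd_ne_zero.2 (Nat.odd_iff.1 hOodd))]
  · haveI := hL
    haveI : Group.IsSolvable Z1 := Group.isSolvable_of_comm fun a b =>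
      Subtype.ext (Subgroup.mem_center_iff.1 (hcen b.2) (a : G ⧸ O))
    haveI : Group.IsSolvable (G ⧸ O) :=
      Group.isSolvable_of_ker_le_range Z1.subtype ρ (by simp [hρdef])
    haveI : Group.IsSolvable O := Cfsg.Agent.S0205.result hOodd
    exact Group.isSolvable_of_ker_le_range O.subtype π (by simp [hπdef])

/-- A section with semiregular action has the same regular rank. -/
theorem exists_reduced {P : Sylow 2 G} {e : ℕ} {Z : Subgroup G} (h : Orb P e Z)
    (hM : IsPModular 2 Mi) (hodd : Odd e) :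
    ∃ (L : Type u) (_ : Group L) (_ : Finite L) (Q : Sylow 2 L), Orb Q e ⊥ ∧ oddCore L = ⊥ ∧
      Nat.card (Q : Subgroup L) * Nat.card Z = Nat.card (P : Subgroup G) ∧
      ((∀ a ∈ (P : Subgroup G), a * a = 1) → ∀ a ∈ (Q : Subgroup L), a * a = 1) ∧
      blockRank 2 (principalBlock Mi G) = blockRank 2 (principalBlock Mi L) := by
  obtain ⟨L, hG, hF, Q, h1, h2, h3, h4, h5, -⟩ := h.exists_reduced' hM hodd
  exact ⟨L, hG, hF, Q, h1, h2, h3, h4, h5⟩

/-- The principal block in terms of the rank for a semiregular action. -/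
theorem card_principalBlock_of_reduced {P : Sylow 2 G} {e : ℕ} {Z : Subgroup G} (h : Orb P e Z)
    (hM : IsPModular 2 Mi) (hodd : Odd e)
    (hL : ∀ (L : Type u) [Group L] [Finite L] (Q : Sylow 2 L), Orb Q e ⊥ → oddCore L = ⊥ →
      Nat.card (Q : Subgroup L) * Nat.card Z = Nat.card (P : Subgroup G) →
      ((∀ a ∈ (P : Subgroup G), a * a = 1) → ∀ a ∈ (Q : Subgroup L), a * a = 1) →
      blockRank 2 (principalBlock Mi L) = e) :
    ∃ s : ℕ, Nat.card (principalBlock Mi G) = Nat.card Z * e + s ∧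
      s * e + Nat.card Z = Nat.card (P : Subgroup G) := by
  haveI : Fact (Nat.Prime 2) := ⟨Nat.prime_two⟩
  haveI := Fintype.ofFinite Z
  obtain ⟨s, h1, h2⟩ := h.card_principalBlock_mul hM
  refine ⟨s, ?_, h2⟩
  rw [h1, Finset.sum_congr rfl (g := fun _ => e) fun c _ => ?_, Finset.sum_const, Finset.card_univ,
    smul_eq_mul, Nat.card_eq_fintype_card]
  obtain ⟨Q, hQ, hQP, hZZ, hmem⟩ := h.centralizer c.2
  obtain ⟨L, _, _, R, hR, hO, hcard, hel, hrank⟩ := hQ.exists_reduced hM hodd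
  rw [hrank]
  refine hL L R hR hO (by rw [hZZ] at hcard; exact hcard.trans hQP) fun hP => hel fun a ha => ?_
  exact Subtype.ext (hP a ((hmem a).1 ha))

end CfsgLib.AbelianTwo.Orb
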