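import Cfsg.Agent.Lib.BlockSections.Count
import Cfsg.Agent.Lib.BlockSections.AbelianCount
import Cfsg.Agent.Lib.BlockLocal.PrincipalColumns
import Cfsg.Agent.Lib.BrauerPairs.MaxPairs
import Cfsg.Agent.Lib.SmallBlocks.Sections
import Cfsg.Agent.S4646
import Cfsg.Agent.S4691

/-!
Counting the principal block over a set of representatives of the classes meeting an abelian
Sylow subgroup.
-/

set_option autoImplicit false
set_option linter.unusedSectionVars false
set_option linter.style.haveILetI false

open Cfsg CfsgLib.CharTheory CfsgLib.Blocks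

namespace CfsgLib.AbelianTwo

universe u

variable {G : Type u} [Group G] [Finite G] {p : ℕ} [Fact p.Prime] {Mi : Ideal AlgInt}

/-- Conjugacy inside an abelian Sylow subgroup is controlled by the normalizer. -/
theorem exists_normalizer_of_isConj (P : Sylow p G)
    (hc : ∀ a ∈ (P : Subgroup G), ∀ b ∈ (P : Subgroup G), a * b = b * a) {a a' : G}
    (ha : a ∈ (P : Subgroup G)) (ha' : a' ∈ (P : Subgroup G)) (h : IsConj a a') :
    ∃ n ∈ Subgroup.normalizer ((P : Subgroup G) : Set G), n * a * n⁻¹ = a' := by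
  obtain ⟨g, hg⟩ := isConj_iff.1 h
  have hcen : ∀ v ∈ (P : Subgroup G), v ∈ Subgroup.centralizer ((P : Subgroup G) : Set G) :=
    fun v hv => Subgroup.mem_centralizer_iff.2 fun x hx => hc x hx v hv
  obtain ⟨n, hn, e⟩ := P.conj_eq_normalizer_conj_of_mem_centralizer a g⁻¹ (hcen a ha)
    (by rw [inv_inv, hg]; exact hcen a' ha')
  refine ⟨n⁻¹, inv_mem hn, ?_⟩
  rw [inv_inv, ← e, inv_inv, hg]

variable (hM : IsPModular p Mi)
include hM

/-- The principal block counted over representatives in a Sylow subgroup of the classes of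
`p`-elements. -/
theorem card_principalBlock_eq_sum (P : Sylow p G) (X : Finset G)
    (hX : ∀ x ∈ X, x ∈ (P : Subgroup G))
    (hrep : ∀ g ∈ (P : Subgroup G), ∃! x, x ∈ X ∧ IsConj g x) :
    Nat.card (principalBlock Mi G) =
      ∑ x ∈ X, blockRank p (principalBlock Mi (Subgroup.centralizer ({x} : Set G))) := by
  classical
  haveI := Blocks.isPrime_of_isPModular hM
  haveI : Mi.IsMaximal := hM.2.1
  haveI := CfsgLib.Blocks.charP_res hM
  haveI := CfsgLib.Blocks.isAlgClosed_res (M := Mi)
  haveI := Fintype.ofFinite G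
  have hpow : ∀ x ∈ X, ∃ k : ℕ, orderOf x = p ^ k := fun x hx => by
    obtain ⟨k, hk⟩ := IsPGroup.iff_orderOf.1 P.isPGroup' ⟨x, hX x hx⟩
    exact ⟨k, by rwa [Subgroup.orderOf_mk] at hk⟩
  rw [CfsgLib.BlockSections.card_block_eq_sum_rank hM
    (CfsgLib.BrauerPairs.isPBlock_principalBlock (G := G) Mi) X hpow ?_]
  · refine Finset.sum_congr rfl fun x hx => ?_
    haveI : Fintype (Subgroup.centralizer ({x} : Set G)) := Fintype.ofFinite _
    rw [show {b : Set (IrrCharacter ↥(Subgroup.centralizer ({x} : Set G))) |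
          IsInducedBlock Mi (Subgroup.centralizer ({x} : Set G)) b (principalBlock Mi G)} =
        {principalBlock Mi (Subgroup.centralizer ({x} : Set G))} from
      Set.ext fun b => ⟨fun hb => Set.mem_singleton_iff.2
        ((BlockLocal.isInducedBlock_principalBlock_iff hM _ ⟨_, hb⟩).1 hb),
        fun e => Set.mem_singleton_iff.1 e ▸
          BlockLocal.isInducedBlock_principal_centralizer hM (hpow x hx)⟩, finsum_mem_singleton]
  · intro g hg
    obtain ⟨k, hk⟩ := hg
    obtain ⟨R, hR⟩ := (IsPGroup.of_card (p := p) (n := k) (by rw [Nat.card_zpowers, hk]) :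
      IsPGroup p (Subgroup.zpowers g)).exists_le_sylow
    obtain ⟨c, hc⟩ := MulAction.exists_smul_eq G R P
    have hcg : c * g * c⁻¹ ∈ (P : Subgroup G) := by
      rw [← hc, Sylow.coe_subgroup_smul, Subgroup.mem_pointwise_smul_iff_inv_smul_mem]
      simpa [MulAut.smul_def, mul_assoc] using hR (Subgroup.mem_zpowers g)
    obtain ⟨x, ⟨hx, hgx⟩, hu⟩ := hrep _ hcg
    have hcc : IsConj g (c * g * c⁻¹) := isConj_iff.2 ⟨c, rfl⟩
    exact ⟨x, ⟨hx, hcc.trans hgx⟩, fun y hy => hu y ⟨hy.1, hcc.symm.trans hy.2⟩⟩

/-- A centralizer of the identity has the rank of the whole group. -/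
theorem blockRank_centralizer_one :
    blockRank p (principalBlock Mi (Subgroup.centralizer ({(1 : G)} : Set G))) =
      blockRank p (principalBlock Mi G) := by
  classical
  haveI := Blocks.isPrime_of_isPModular hM
  haveI := Fintype.ofFinite G
  haveI : Fintype (Subgroup.centralizer ({(1 : G)} : Set G)) := Fintype.ofFinite _
  obtain ⟨b, hb, -, hrank, huniq⟩ := CfsgLib.BlockSections.exists_block_one (p := p) hM
    (CfsgLib.BrauerPairs.isPBlock_principalBlock (G := G) Mi)
  rw [huniq _ (BlockLocal.isInducedBlock_principal_centralizer hM ⟨0, by simp⟩), hrank]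

/-- A group has a normal `p`-complement exactly when the principal block has rank one. -/
theorem blockRank_eq_one_iff :
    blockRank p (principalBlock Mi G) = 1 ↔ HasNormalPComplement p G := by
  haveI := Fintype.ofFinite G
  exact ((Cfsg.Agent.S4691.result p Mi hM).trans (Cfsg.Agent.S4646.result p Mi hM)).symm

end CfsgLib.AbelianTwo
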